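import Cfsg.Agent.PSpFour.Model
import Cfsg.Agent.Fusion.CoverSimple
import Cfsg.Agent.PReduced.CharP
import Cfsg.Prelude.Def_Classical

/-!
The 2-fusion system of `PSp(4, F)`, `F` of odd order, is simple.
-/

set_option autoImplicit false

namespace CfsgLib.PSpFour

open Matrix

section Ring

variable {R : Type*} [Ring R] {x y : R}

theorem quat_rules (hx : x * x = -1) (hy : y * y = -1) (hxy : x * y = -(y * x)) :
    y * x = -(x * y) ∧ (∀ r, x * (x * r) = -r) ∧ (∀ r, y * (y * r) = -r) ∧ (∀ r, y * (x * r) = -(x * (y * r))) := by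
  have h : y * x = -(x * y) := by rw [hxy, neg_neg]
  refine ⟨h, fun r => ?_, fun r => ?_, fun r => ?_⟩
  · rw [← mul_assoc, hx, neg_one_mul]
  · rw [← mul_assoc, hy, neg_one_mul]
  · rw [← mul_assoc, h, neg_mul, mul_assoc]

theorem refl_identities (hx : x * x = -1) (hy : y * y = -1) (hxy : x * y = -(y * x)) :
    (x - y) * (x - y) = -(1 + 1) ∧ (x - y) * x * (x - y) = y + y ∧ (x - y) * y * (x - y) = x + x := by
  obtain ⟨h1, h2, h3, h4⟩ := quat_rules hx hy hxy
  refine ⟨?_, ?_, ?_⟩ <;>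
  · simp only [sub_mul, mul_sub, mul_assoc, hx, hy, h1, h2, h3, h4, mul_neg, neg_mul, neg_neg, mul_one, one_mul]
    abel

theorem cycle_identity (hx : x * x = -1) (hy : y * y = -1) (hxy : x * y = -(y * x)) :
    (x - y) * (y - x * y) * x = y * ((x - y) * (y - x * y)) ∧
    (x - y) * (y - x * y) * y = x * y * ((x - y) * (y - x * y)) := by
  obtain ⟨h1, h2, h3, h4⟩ := quat_rules hx hy hxy
  refine ⟨?_, ?_⟩ <;>
  · simp only [sub_mul, mul_sub, mul_assoc, hx, hy, h1, h2, h3, h4, mul_neg, neg_mul, neg_neg, mul_one, one_mul]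
    abel

end Ring

variable {F : Type*} [Field F]

local notation "SL" => SpecialLinearGroup (Fin 2) F
local notation "M2" => Matrix (Fin 2) (Fin 2) F
local notation "H4" => Matrix.symplecticGroup (Fin 2) F

theorem det_one_of_mem {A D : M2} (h : blk A 0 0 D ∈ H4) : A.det = 1 ∧ D.det = 1 := by
  rw [SymplecticGroup.mem_iff] at h
  have h1 := congrFun (congrFun h (Sum.inr 0)) (Sum.inl 0)
  have h2 := congrFun (congrFun h (Sum.inr 1)) (Sum.inl 1)
  simp [blk, idx, Matrix.J, Matrix.mul_apply, Fintype.sum_sum_type, Fin.sum_univ_two] at h1 h2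
  rw [det_fin_two, det_fin_two]
  exact ⟨by linear_combination h1, by linear_combination h2⟩

theorem dia_neg (a b : SL) : (dia (-a, -b) : H4) = dia (-1, -1) * dia (a, b) := by
  rw [← map_mul, Prod.mk_mul_mk, neg_one_mul, neg_one_mul]

/-- Elements commuting with `dia (1, -1)` up to sign are block diagonal or block anti-diagonal. -/
theorem exists_dia_of_comm (h2 : (2 : F) ≠ 0) {n : H4}
    (hn : n * dia (1, -1) = dia (1, -1) * n ∨ n * dia (1, -1) = dia (-1, 1) * n) :
    ∃ a b : SL, n = dia (a, b) ∨ n = swp * dia (a, b) := by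
  have key : ∀ n : H4, n * dia (1, -1) = dia (1, -1) * n → ∃ a b : SL, n = dia (a, b) := by
    intro n hn
    obtain ⟨A, B, C, D, hX⟩ := exists_blk n.1
    have h : n.1 * (dia (1, -1) : H4).1 = (dia (1, -1) : H4).1 * n.1 := congrArg Subtype.val hn
    rw [hX, dia_coe, blk_mul, blk_mul, blk_inj] at h
    obtain ⟨-, hB, hC, -⟩ := h
    simp at hB hC
    have hz : ∀ X : M2, -X = X → X = 0 := fun X hX => by
      have h3 : (2 : F) • X = 0 := by rw [two_smul]; nth_rw 1 [← hX]; exact neg_add_cancel X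
      exact (smul_eq_zero.1 h3).resolve_left h2
    have hB0 : B = 0 := hz B hB
    have hC0 : C = 0 := hz C hC.symm
    subst hB0 hC0
    obtain ⟨hA, hD⟩ := det_one_of_mem (hX ▸ n.2)
    exact ⟨⟨A, hA⟩, ⟨D, hD⟩, Subtype.ext hX⟩
  rcases hn with h | h
  · obtain ⟨a, b, hab⟩ := key n h
    exact ⟨a, b, Or.inl hab⟩
  · obtain ⟨a, b, hab⟩ := key (swp * n) (by
      rw [mul_assoc, h, ← mul_assoc, swp_dia, mul_assoc])
    exact ⟨a, b, Or.inr (by rw [← hab, ← mul_assoc, swp_mul_self, one_mul])⟩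

variable [Fintype F]

/-- The standard element of order 4. -/
def jStd : SL := ⟨!![0, -1; 1, 0], by simp [det_fin_two]⟩

omit [Fintype F] in
theorem jStd_coe : (jStd : SL).1 = !![0, -1; 1, 0] := rfl

/-- All elements of square `-1` of `SL(2, F)` are conjugate. -/
theorem exists_conj_of_sq (h2 : (2 : F) ≠ 0) (hodd : Fintype.card F % 2 = 1) {j k : SL} (hj : j * j = -1)
    (hk : k * k = -1) : ∃ g : SL, g * j * g⁻¹ = k := by
  suffices h : ∀ j : SL, j * j = -1 → ∃ P : SL, j * P = P * jStd by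
    obtain ⟨P, hP⟩ := h j hj
    obtain ⟨P', hP'⟩ := h k hk
    refine ⟨P' * P⁻¹, ?_⟩
    rw [_root_.mul_inv_rev, inv_inv]
    generalize (jStd : SL) = w at hP hP'
    calc P' * P⁻¹ * j * (P * P'⁻¹) = P' * P⁻¹ * (j * P) * P'⁻¹ := by group
      _ = P' * P⁻¹ * (P * w) * P'⁻¹ := by rw [hP]
      _ = P' * w * P'⁻¹ := by rw [mul_assoc P' P⁻¹, inv_mul_cancel_left]
      _ = k * P' * P'⁻¹ := by rw [← hP']
      _ = k := mul_inv_cancel_right k P'
  intro j hj
  have ht := trace_of_sq h2 hj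
  have hd := det_eq j
  have hd' : j.1 1 1 = -j.1 0 0 := by linear_combination ht
  rw [hd'] at hd
  suffices h : ∃ x y : F, j.1 1 0 * x * x - 2 * j.1 0 0 * x * y - j.1 0 1 * y * y = 1 by
    obtain ⟨x, y, hxy⟩ := h
    let P : SL := ⟨!![x, j.1 0 0 * x + j.1 0 1 * y; y, j.1 1 0 * x + j.1 1 1 * y], by
      rw [det_fin_two]; simp [hd']; linear_combination hxy⟩
    refine ⟨P, Subtype.ext ?_⟩
    show j.1 * P.1 = P.1 * !![0, -1; 1, 0]
    ext r c
    fin_cases r <;> fin_cases c <;> simp [P, Matrix.mul_apply, Fin.sum_univ_two, hd']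
    · linear_combination -x * hd
    · linear_combination -y * hd
  by_cases hc : j.1 1 0 = 0
  · have ha : j.1 0 0 ≠ 0 := fun h => by rw [h, hc] at hd; simp at hd
    refine ⟨(-j.1 0 1 - 1) / (2 * j.1 0 0), 1, ?_⟩
    rw [hc]
    field_simp
    ring
  obtain ⟨X, Y, hXY⟩ := FiniteField.exists_root_sum_quadratic
    (f := Polynomial.C (j.1 1 0 * j.1 1 0) * Polynomial.X ^ 2)
    (g := Polynomial.X ^ 2 - Polynomial.C (j.1 1 0))
    (by rw [Polynomial.degree_C_mul_X_pow _ (mul_ne_zero hc hc)]; rfl)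
    (by rw [Polynomial.degree_X_pow_sub_C (by norm_num)]; rfl) hodd
  simp only [Polynomial.eval_sub, Polynomial.eval_pow, Polynomial.eval_X, Polynomial.eval_mul,
    Polynomial.eval_C] at hXY
  refine ⟨X + j.1 0 0 * Y / j.1 1 0, Y, ?_⟩
  field_simp
  linear_combination hXY + Y ^ 2 * hd

variable (F) in
/-- The quotient map. -/
def proj : H4 →* Cfsg.PSp 2 F := QuotientGroup.mk' _

theorem proj_surjective : Function.Surjective (proj F) := QuotientGroup.mk'_surjective _

omit [Fintype F] in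
theorem eq_or_of_proj {x y : H4} (h : proj F x = proj F y) : x = y ∨ x = dia (-1, -1) * y := by
  have h1 : x * y⁻¹ ∈ (proj F).ker := by rw [MonoidHom.mem_ker, map_mul, map_inv, h, mul_inv_cancel]
  rw [proj, QuotientGroup.ker_mk', CfsgLib.Symp.mem_center_iff (by norm_num : 0 < 2)] at h1
  rcases h1 with h1 | h1
  · left; exact mul_inv_eq_one.1 (Subtype.ext h1)
  · right
    have : x * y⁻¹ = dia (-1, -1) := Subtype.ext (h1.trans dia_neg_one.symm)
    rw [← this, inv_mul_cancel_right]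

omit [Fintype F] in
theorem proj_neg : proj F (dia (-1, -1)) = 1 := by
  rw [← MonoidHom.mem_ker, proj, QuotientGroup.ker_mk', CfsgLib.Symp.mem_center_iff (by norm_num : 0 < 2)]
  exact Or.inr dia_neg_one

/-- The image of `dia`. -/
def D (a b : SL) : Cfsg.PSp 2 F := proj F (dia (a, b))

/-- The image of `swp`. -/
def W : Cfsg.PSp 2 F := proj F swp

section Basic

omit [Fintype F]

theorem D_mul (a b a' b' : SL) : D a b * D a' b' = D (a * a') (b * b') := by
  rw [D, D, D, ← map_mul, ← map_mul, Prod.mk_mul_mk]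

theorem D_inv (a b : SL) : (D a b)⁻¹ = D a⁻¹ b⁻¹ := by
  rw [D, D, ← map_inv, ← map_inv, Prod.inv_mk]

theorem D_one : D (1 : SL) 1 = (1 : Cfsg.PSp 2 F) := by
  rw [D, show ((1 : SL), (1 : SL)) = 1 from rfl, map_one, map_one]

theorem D_neg (a b : SL) : D (-a) (-b) = D a b := by
  rw [D, dia_neg, map_mul, proj_neg, one_mul]; rfl

theorem W_D (a b : SL) : W * D a b = D b a * W := by rw [W, D, D, ← map_mul, ← map_mul, swp_dia]

theorem W_sq : (W : Cfsg.PSp 2 F) * W = 1 := by rw [W, ← map_mul, swp_mul_self, map_one]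

theorem W_inv : (W : Cfsg.PSp 2 F)⁻¹ = W := inv_eq_of_mul_eq_one_right W_sq

theorem D_conj_W (a b : SL) : D a b * W * (D a b)⁻¹ = D (a * b⁻¹) (b * a⁻¹) * W := by
  rw [D_inv, mul_assoc, W_D, ← mul_assoc, D_mul]

theorem D_eq {a b a' b' : SL} (h : D a b = D a' b') : (a = a' ∧ b = b') ∨ (a = -a' ∧ b = -b') := by
  rcases eq_or_of_proj h with h1 | h1
  · left; simpa using dia_injective h1
  · right; rw [← dia_neg] at h1; simpa using dia_injective h1

theorem D_ne_DW (a b a' b' : SL) : D a b ≠ D a' b' * W := fun h => by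
  rw [D, D, W, ← map_mul] at h
  rcases eq_or_of_proj h with h1 | h1
  · exact dia_ne_dia_swp _ _ _ _ h1
  · rw [← mul_assoc, ← dia_neg] at h1; exact dia_ne_dia_swp _ _ _ _ h1

end Basic

/-- An element centralising `D 1 (-1)` is monomial. -/
theorem exists_D_of_comm (h2 : (2 : F) ≠ 0) {g : Cfsg.PSp 2 F} (hg : g * D 1 (-1) * g⁻¹ = D 1 (-1)) :
    ∃ a b : SL, g = D a b ∨ g = W * D a b := by
  obtain ⟨n, rfl⟩ := proj_surjective g
  rw [mul_inv_eq_iff_eq_mul, D, ← map_mul, ← map_mul] at hg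
  have hn : n * dia (1, -1) = dia (1, -1) * n ∨ n * dia (1, -1) = dia (-1, 1) * n := by
    rcases eq_or_of_proj hg with h | h
    · exact Or.inl h
    · right
      rw [h, ← mul_assoc, ← dia_neg, neg_neg]
  obtain ⟨a, b, h | h⟩ := exists_dia_of_comm h2 hn
  · exact ⟨a, b, Or.inl (by rw [h]; rfl)⟩
  · exact ⟨a, b, Or.inr (by rw [h, map_mul]; rfl)⟩

section Sylow

/-- The image of `wr Q`. -/
def sylG (Q : Sylow 2 SL) : Subgroup (Cfsg.PSp 2 F) := (wr (Q : Subgroup SL)).map (proj F)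

variable {Q : Sylow 2 (Matrix.SpecialLinearGroup (Fin 2) F)}

theorem D_mem {a b : SL} (ha : a ∈ Q) (hb : b ∈ Q) : D a b ∈ sylG Q := ⟨_, ⟨a, ha, b, hb, Or.inl rfl⟩, rfl⟩

theorem W_mem : (W : Cfsg.PSp 2 F) ∈ sylG Q :=
  ⟨_, ⟨1, one_mem _, 1, one_mem _, Or.inr (by rw [show ((1 : SL), (1 : SL)) = 1 from rfl, map_one, one_mul])⟩, rfl⟩

theorem exists_of_mem {y : Cfsg.PSp 2 F} (hy : y ∈ sylG Q) : ∃ a ∈ Q, ∃ b ∈ Q, y = D a b ∨ y = D a b * W := by
  obtain ⟨_, ⟨a, ha, b, hb, rfl | rfl⟩, rfl⟩ := hy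
  · exact ⟨a, ha, b, hb, Or.inl rfl⟩
  · exact ⟨a, ha, b, hb, Or.inr (map_mul _ _ _)⟩

theorem D_mem_iff (h2 : (2 : F) ≠ 0) (hodd : Fintype.card F % 2 = 1) {a b : SL} :
    D a b ∈ sylG Q ↔ a ∈ Q ∧ b ∈ Q := by
  refine ⟨fun h => ?_, fun h => D_mem h.1 h.2⟩
  obtain ⟨a', ha', b', hb', e | e⟩ := exists_of_mem h
  · rcases D_eq e with ⟨rfl, rfl⟩ | ⟨rfl, rfl⟩
    exacts [⟨ha', hb'⟩, ⟨neg_mem h2 hodd ha', neg_mem h2 hodd hb'⟩]
  · exact absurd e (D_ne_DW _ _ _ _)

/-- The only non-trivial central element. -/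
theorem eq_of_central (h2 : (2 : F) ≠ 0) (hodd : Fintype.card F % 2 = 1) {z : Cfsg.PSp 2 F} (hz : z ∈ sylG Q)
    (hz1 : z ≠ 1) (hc : ∀ u ∈ sylG Q, u * z = z * u) : z = D 1 (-1) := by
  obtain ⟨x, hx, y, hy, hxx, hyy, hxy⟩ := exists_pair h2 hodd Q
  have hx1 : x ≠ 1 := fun h => neg_one_ne_one h2 (by rw [← hxx, h, one_mul])
  have hx1' : x ≠ -1 := fun h => neg_one_ne_one h2 (by rw [← hxx, h, neg_mul_neg, one_mul])
  obtain ⟨a, ha, b, hb, rfl | rfl⟩ := exists_of_mem hz
  · have hqc : ∀ q ∈ Q, q * a = a * q := by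
      intro q hq
      have h := hc _ (D_mem hq (one_mem _))
      rw [D_mul, D_mul, one_mul, mul_one] at h
      rcases D_eq h with ⟨h1, -⟩ | ⟨-, h1⟩
      · exact h1
      · exfalso
        have h3 : b * (-1 : SL) = b * 1 := by rw [mul_neg_one, mul_one, ← h1]
        exact neg_one_ne_one h2 (mul_left_cancel h3)
    have hqc' : ∀ q ∈ Q, q * b = b * q := by
      intro q hq
      have h := hc _ (D_mem (one_mem _) hq)
      rw [D_mul, D_mul, one_mul, mul_one] at h
      rcases D_eq h with ⟨-, h1⟩ | ⟨h1, -⟩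
      · exact h1
      · exfalso
        have h3 : a * (-1 : SL) = a * 1 := by rw [mul_neg_one, mul_one, ← h1]
        exact neg_one_ne_one h2 (mul_left_cancel h3)
    rcases eq_one_or_of_commute h2 hxx hxy (hqc x hx).symm (hqc y hy).symm with rfl | rfl <;>
      rcases eq_one_or_of_commute h2 hxx hxy (hqc' x hx).symm (hqc' y hy).symm with rfl | rfl
    · exact absurd D_one hz1
    · rfl
    · rw [← D_neg, neg_neg]
    · exact absurd (by rw [D_neg, D_one]) hz1
  · exfalso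
    have h := hc _ (D_mem hx (one_mem _))
    rw [← mul_assoc, D_mul, mul_assoc (D a b), W_D, ← mul_assoc, D_mul, one_mul, mul_one] at h
    rcases D_eq (mul_right_cancel h) with ⟨h1, -⟩ | ⟨h1, -⟩
    · exact hx1 (mul_eq_right.1 h1)
    · refine hx1' (mul_right_cancel (b := a) ?_)
      rw [h1, neg_one_mul]

/-- A non-trivial subgroup closed under fusion contains the whole Sylow group. -/
theorem sylG_le_of_closed (h2 : (2 : F) ≠ 0) (hodd : Fintype.card F % 2 = 1) (hp : IsPGroup 2 (sylG Q))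
    {T : Subgroup (Cfsg.PSp 2 F)} (hT : T ≤ sylG Q) (hne : T ≠ ⊥)
    (hcl : ∀ g, ∀ t ∈ T, g * t * g⁻¹ ∈ sylG Q → g * t * g⁻¹ ∈ T) : sylG Q ≤ T := by
  haveI : Fact (Nat.Prime 2) := ⟨Nat.prime_two⟩
  have ht0 : D (1 : SL) (-1) ∈ T := by
    obtain ⟨z, hzT, hzo, hzc⟩ := CfsgLib.PReduced.exists_central_of_normalized (p := 2) (sylG Q) hp hT (fun u hu =>
      CfsgLib.AltSylowTwo.mem_normalizer_of_forall fun t ht =>
        hcl u t ht ((sylG Q).mul_mem ((sylG Q).mul_mem hu (hT ht)) ((sylG Q).inv_mem hu))) hne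
    have hz1 : z ≠ 1 := fun h => by rw [h, orderOf_one] at hzo; exact absurd hzo (by decide)
    rwa [← eq_of_central h2 hodd (hT hzT) hz1 hzc]
  have hWT : (W : Cfsg.PSp 2 F) ∈ T := by
    have e : W = proj F (halfRot h2) * D 1 (-1) * (proj F (halfRot h2))⁻¹ := by
      rw [eq_mul_inv_iff_mul_eq, W, D, ← map_mul, ← map_mul, swp_mul_halfRot]
    rw [e]
    exact hcl _ _ ht0 (e ▸ W_mem)
  have hanti : ∀ u ∈ Q, D u u⁻¹ ∈ T := by
    intro u hu
    have h1 : D u 1 * W * (D u 1)⁻¹ = D u u⁻¹ * W := by rw [D_conj_W, inv_one, mul_one, one_mul]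
    have h3 := hcl (D u 1) W hWT (by rw [h1]; exact mul_mem (D_mem hu (inv_mem hu)) W_mem)
    rw [h1] at h3
    have h4 := mul_mem h3 hWT
    rwa [mul_assoc, W_sq, mul_one] at h4
  have hfst : ∀ a ∈ Q, D a 1 ∈ T := by
    intro a ha
    by_cases ha1 : a = 1
    · rw [ha1, D_one]; exact one_mem _
    by_cases ha1' : a = -1
    · rw [ha1']
      have : D (-1 : SL) 1 = D 1 (-1) := by rw [← D_neg, neg_neg]
      rwa [this]
    obtain ⟨k, hk⟩ := exists_pow_two ha
    obtain ⟨j, hj, hja, hjc⟩ := exists_inverter h2 hodd hk ha1 ha1'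
    obtain ⟨h, ha', hj'⟩ := exists_conj_inverter hk hj hjc Q
    have hsq' : h * j * h⁻¹ * (h * j * h⁻¹) = -1 := by
      rw [show h * j * h⁻¹ * (h * j * h⁻¹) = h * (j * j) * h⁻¹ by group, hj]; simp
    have haj : h * a * h⁻¹ * (h * j * h⁻¹) * (h * a * h⁻¹ * (h * j * h⁻¹)) = -1 := by
      rw [show h * a * h⁻¹ * (h * j * h⁻¹) * (h * a * h⁻¹ * (h * j * h⁻¹)) =
        h * (j⁻¹ * (j * a * (j * a)) * j) * h⁻¹ by group, hja]
      simp
    set a' := h * a * h⁻¹
    set j' := h * j * h⁻¹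
    obtain ⟨g, hg⟩ := exists_conj_of_sq h2 hodd hsq' haj
    have e : D g 1 * D j' j'⁻¹ * (D g 1)⁻¹ = D (a' * j') j'⁻¹ := by
      rw [D_inv, D_mul, D_mul, hg, one_mul, inv_one, mul_one]
    have h5 := hcl (D g 1) _ (hanti j' hj') (by rw [e]; exact D_mem (mul_mem ha' hj') (inv_mem hj'))
    rw [e] at h5
    have h6 : D a' 1 ∈ T := by
      have := mul_mem h5 (inv_mem (hanti j' hj'))
      rwa [D_inv, D_mul, mul_inv_cancel_right, mul_inv_cancel] at this
    have e' : D h⁻¹ 1 * D a' 1 * (D h⁻¹ 1)⁻¹ = D a 1 := by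
      rw [D_inv, D_mul, D_mul, inv_inv, inv_one, mul_one, mul_one]
      congr 1
      simp only [a']; group
    have h7 := hcl (D h⁻¹ 1) _ h6 (by rw [e']; exact D_mem ha (one_mem _))
    rwa [e'] at h7
  intro y hy
  have hsnd : ∀ b ∈ Q, D 1 b ∈ T := fun b hb => by
    have := mul_mem (mul_mem hWT (hfst b hb)) hWT
    rwa [W_D, mul_assoc, W_sq, mul_one] at this
  obtain ⟨a, ha, b, hb, rfl | rfl⟩ := exists_of_mem hy
  all_goals
    have h8 := mul_mem (hfst a ha) (hsnd b hb)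
    rw [D_mul, one_mul, mul_one] at h8
  · exact h8
  · exact mul_mem h8 hWT

/-- An element of the normaliser, up to the Sylow group, is diagonal with equal entries in `N(Q)`. -/
theorem exists_of_normalizes (h2 : (2 : F) ≠ 0) (hodd : Fintype.card F % 2 = 1) {g : Cfsg.PSp 2 F}
    (hg : ∀ u ∈ sylG Q, g * u * g⁻¹ ∈ sylG Q) :
    ∃ b ∈ Subgroup.normalizer ((Q : Subgroup SL) : Set SL), ∃ u ∈ sylG Q, g = u * D b b := by
  have hN : g ∈ Subgroup.normalizer ((sylG Q : Subgroup (Cfsg.PSp 2 F)) : Set (Cfsg.PSp 2 F)) :=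
    CfsgLib.AltSylowTwo.mem_normalizer_of_forall hg
  have ht0 : D (1 : SL) (-1) ∈ sylG Q := D_mem (one_mem _) (neg_one_mem h2 hodd Q)
  have hcent : ∀ u ∈ sylG Q, u * D 1 (-1) = D (1 : SL) (-1) * u := by
    intro u hu
    obtain ⟨a, ha, b, hb, rfl | rfl⟩ := exists_of_mem hu
    · rw [D_mul, D_mul]; simp
    · rw [mul_assoc, W_D, ← mul_assoc, ← mul_assoc, D_mul, D_mul, ← D_neg (a * -1)]
      simp
  have hfix : g * D 1 (-1) * g⁻¹ = D (1 : SL) (-1) := by
    refine eq_of_central h2 hodd (hg _ ht0) ?_ ?_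
    · rw [Ne, mul_inv_eq_one, mul_eq_left]
      intro h
      rw [← D_one] at h
      rcases D_eq h with ⟨-, h1⟩ | ⟨h1, -⟩
      exacts [neg_one_ne_one h2 h1, neg_one_ne_one h2 h1.symm]
    · intro u hu
      have hu' : g⁻¹ * u * g ∈ sylG Q := by
        have := (Subgroup.mem_normalizer_iff.1 (inv_mem hN) u).1 hu
        simpa using this
      calc u * (g * D 1 (-1) * g⁻¹) = g * (g⁻¹ * u * g * D 1 (-1)) * g⁻¹ := by group
        _ = g * (D 1 (-1) * (g⁻¹ * u * g)) * g⁻¹ := by rw [hcent _ hu']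
        _ = g * D 1 (-1) * g⁻¹ * u := by group
  obtain ⟨a, b, hab⟩ := exists_D_of_comm h2 hfix
  obtain ⟨u₀, hu₀, hgu⟩ : ∃ u₀ ∈ sylG Q, g = u₀ * D a b := by
    rcases hab with h | h
    · exact ⟨1, one_mem _, by rw [h, one_mul]⟩
    · exact ⟨W, W_mem, h⟩
  have hD : D a b ∈ Subgroup.normalizer ((sylG Q : Subgroup (Cfsg.PSp 2 F)) : Set (Cfsg.PSp 2 F)) := by
    have e : D a b = u₀⁻¹ * g := by rw [hgu, inv_mul_cancel_left]
    rw [e]
    exact mul_mem (inv_mem (Subgroup.le_normalizer hu₀)) hN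
  have hq : a * b⁻¹ ∈ Q := by
    have h := (Subgroup.mem_normalizer_iff.1 hD W).1 W_mem
    rw [D_conj_W] at h
    have h' := mul_mem h (W_mem (Q := Q))
    rw [mul_assoc, W_sq, mul_one, D_mem_iff h2 hodd] at h'
    exact h'.1
  have hb : b ∈ Subgroup.normalizer ((Q : Subgroup SL) : Set SL) := by
    refine CfsgLib.AltSylowTwo.mem_normalizer_of_forall fun q hq => ?_
    have h := (Subgroup.mem_normalizer_iff.1 hD _).1 (D_mem (one_mem _) hq)
    rw [D_inv, D_mul, D_mul, D_mem_iff h2 hodd] at h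
    exact h.2
  refine ⟨b, hb, u₀ * D (a * b⁻¹) 1, mul_mem hu₀ (D_mem hq (one_mem _)), ?_⟩
  rw [hgu, mul_assoc, D_mul, inv_mul_cancel_right, one_mul]

end Sylow

theorem pow_two_pow_of_sylG {Q : Sylow 2 SL} (hp : IsPGroup 2 (sylG Q)) {u : Cfsg.PSp 2 F} (hu : u ∈ sylG Q) :
    ∃ k : ℕ, orderOf u = 2 ^ k := by
  haveI : Fact (Nat.Prime 2) := ⟨Nat.prime_two⟩
  obtain ⟨k, hk⟩ := IsPGroup.iff_orderOf.1 hp ⟨u, hu⟩
  exact ⟨k, by rw [← hk, Subgroup.orderOf_mk]⟩

/-- The subgroup `Q₈ ∘ D₈` of the quaternion case. -/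
def klein (Q : Sylow 2 SL) : Subgroup (Cfsg.PSp 2 F) :=
  Subgroup.closure ({y | ∃ q ∈ Q, y = D q q} ∪ {D 1 (-1), W})

theorem klein_le (h2 : (2 : F) ≠ 0) (hodd : Fintype.card F % 2 = 1) (Q : Sylow 2 SL) : klein Q ≤ sylG Q := by
  rw [klein, Subgroup.closure_le]
  rintro y (⟨q, hq, rfl⟩ | rfl | rfl)
  exacts [D_mem hq hq, D_mem (one_mem _) (neg_one_mem h2 hodd Q), W_mem]

/-- A map respecting the generators respects the subgroup. -/
theorem conj_mem_klein {Q : Sylow 2 SL} {g : Cfsg.PSp 2 F} (h1 : ∀ q ∈ Q, g * D q q * g⁻¹ ∈ klein Q)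
    (h3 : g * D 1 (-1) * g⁻¹ ∈ klein Q) (h4 : g * W * g⁻¹ ∈ klein Q) {r : Cfsg.PSp 2 F} (hr : r ∈ klein Q) :
    g * r * g⁻¹ ∈ klein Q := by
  have : klein Q ≤ (klein Q).comap (MulAut.conj g).toMonoidHom := by
    conv_lhs => rw [klein]
    rw [Subgroup.closure_le]
    rintro y (⟨q, hq, rfl⟩ | rfl | rfl)
    exacts [h1 q hq, h3, h4]
  exact this hr

theorem comm_of_order_four (h2 : (2 : F) ≠ 0) {Q : Sylow 2 SL} (hA : ∀ u ∈ Q, u ≠ 1 → u ≠ -1 → u * u = -1)
    {a q : SL} (ha : a ∈ Q) (hq : q ∈ Q) : a * q * a⁻¹ = q ∨ a * q * a⁻¹ = -q := by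
  by_cases ha1 : a = 1
  · left; simp [ha1]
  by_cases ha2 : a = -1
  · left; simp [ha2]
  by_cases hq1 : q = 1
  · left; simp [hq1]
  by_cases hq2 : q = -1
  · left; simp [hq2]
  have haa := hA a ha ha1 ha2
  have hqq := hA q hq hq1 hq2
  by_cases h1 : a * q = 1
  · left; rw [eq_inv_of_mul_eq_one_right h1]; group
  by_cases h3 : a * q = -1
  · left
    have : q = -a⁻¹ := by rw [← mul_neg_one, ← h3, inv_mul_cancel_left]
    rw [this]; simp
  right
  have h4 := hA _ (mul_mem ha hq) h1 h3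
  have h5 : (a * q)⁻¹ = -(a * q) := inv_eq_neg h4
  rw [_root_.mul_inv_rev, inv_eq_neg haa, inv_eq_neg hqq, neg_mul_neg] at h5
  rw [mul_inv_eq_iff_eq_mul, neg_mul, h5, neg_neg]

section Refl

variable {Q : Sylow 2 (Matrix.SpecialLinearGroup (Fin 2) F)}

theorem sq_coe {x : SL} (hx : x * x = -1) : x.1 * x.1 = -1 := by
  simpa using congrArg Subtype.val hx

theorem anti_coe {x y : SL} (h : x * y = -(y * x)) : x.1 * y.1 = -(y.1 * x.1) := by
  simpa using congrArg Subtype.val h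

theorem refl_adj (h2 : (2 : F) ≠ 0) {x y : SL} (hx : x * x = -1) (hy : y * y = -1) :
    (x.1 - y.1).adjugate = -(x.1 - y.1) := by
  have hx' := trace_of_sq h2 hx
  have hy' := trace_of_sq h2 hy
  ext i j
  fin_cases i <;> fin_cases j <;> simp [Matrix.adjugate_fin_two]
  · linear_combination hx' - hy'
  · linear_combination hx' - hy'

theorem refl_sq {x y : SL} (hx : x * x = -1) (hy : y * y = -1) (hxy : x * y = -(y * x)) :
    (x.1 - y.1) * (x.1 - y.1) = (-2 : F) • (1 : M2) := by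
  rw [(refl_identities (sq_coe hx) (sq_coe hy) (anti_coe hxy)).1, neg_smul, two_smul]

/-- The reflection product of a pair `x, y`. -/
def rfx (h2 : (2 : F) ≠ 0) (x y : SL) (hx : x * x = -1) (hy : y * y = -1) (hxy : x * y = -(y * x)) : Cfsg.PSp 2 F :=
  proj F (refl h2 (x.1 - y.1) (refl_adj h2 hx hy) (refl_sq hx hy hxy))

theorem rfx_spec (h2 : (2 : F) ≠ 0) (hodd : Fintype.card F % 2 = 1)
    (hA : ∀ u ∈ Q, u ≠ 1 → u ≠ -1 → u * u = -1) {x y : SL} (hxQ : x ∈ Q) (hyQ : y ∈ Q) (hx : x * x = -1)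
    (hy : y * y = -1) (hxy : x * y = -(y * x)) :
    orderOf (rfx h2 x y hx hy hxy) ∣ 2 ∧ ∀ r ∈ klein Q, rfx h2 x y hx hy hxy * r * (rfx h2 x y hx hy hxy)⁻¹ ∈ klein Q := by
  obtain ⟨hdd, hdx, hdy⟩ := refl_identities (sq_coe hx) (sq_coe hy) (anti_coe hxy)
  set d := x.1 - y.1 with hd
  set n : H4 := refl h2 d (refl_adj h2 hx hy) (refl_sq hx hy hxy)
  have hdd' : d * d = (-2 : F) • (1 : M2) := refl_sq hx hy hxy
  have hnc : (n : H4).1 = blk ((2 : F)⁻¹ • d) ((2 : F)⁻¹ • d) ((2 : F)⁻¹ • d) (-((2 : F)⁻¹ • d)) := rfl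
  have hprod : ∀ X Y : M2, ((2 : F)⁻¹ • X) * ((2 : F)⁻¹ • Y) = ((2 : F)⁻¹ * (2 : F)⁻¹) • (X * Y) := fun X Y => by
    rw [Matrix.smul_mul, Matrix.mul_smul, smul_smul]
  have hhalf : (2 : F)⁻¹ * (2 : F)⁻¹ * 2 = (2 : F)⁻¹ := by field_simp
  have hnn : n * n = dia (-1, -1) := Subtype.ext (by
    show n.1 * n.1 = blk _ _ _ _
    rw [hnc, blk_mul, blk_inj]
    simp only [Matrix.mul_neg, Matrix.neg_mul, neg_neg, hprod, hdd', smul_smul]
    refine ⟨?_, ?_, ?_, ?_⟩
    · rw [← add_smul]; simp; field_simp; norm_num; rw [neg_div, div_self h2, neg_one_smul]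
    · abel
    · abel
    · rw [← add_smul]; simp; field_simp; norm_num; rw [neg_div, div_self h2, neg_one_smul])
  have hinv : (proj F n)⁻¹ = proj F n := inv_eq_of_mul_eq_one_right (by rw [← map_mul, hnn, proj_neg])
  have hmove : ∀ v v' : SL, d * v.1 * d = v'.1 + v'.1 → proj F n * D v v * (proj F n)⁻¹ = D v' v' := by
    intro v v' h
    rw [hinv, D, D, ← map_mul, ← map_mul]
    congr 1
    refine Subtype.ext ?_
    show n.1 * blk _ _ _ _ * n.1 = blk _ _ _ _
    rw [hnc, blk_mul, blk_mul, blk_inj]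
    simp only [Matrix.mul_zero, add_zero, zero_add, Matrix.mul_neg, Matrix.neg_mul, neg_neg]
    have e : ((2 : F)⁻¹ • d) * v.1 * ((2 : F)⁻¹ • d) = (2 : F)⁻¹ • v'.1 := by
      rw [Matrix.smul_mul, hprod, h, ← two_smul F, smul_smul, hhalf]
    have h1 : (2 : F)⁻¹ + 2⁻¹ = 1 := by field_simp; norm_num
    rw [e, ← add_smul, h1, one_smul]
    exact ⟨rfl, by abel, by abel, rfl⟩
  have hswap : proj F n * D 1 (-1) * (proj F n)⁻¹ = W := by
    rw [hinv, D, W, ← map_mul, ← map_mul]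
    have e1 : n * dia (1, -1) * n = dia (-1, -1) * swp := Subtype.ext (by
      show n.1 * blk (1 : M2) 0 0 (-1) * n.1 = blk (-1 : M2) 0 0 (-1) * blk 0 1 1 0
      rw [hnc, blk_mul, blk_mul, blk_mul, blk_inj]
      simp only [Matrix.mul_zero, add_zero, zero_add, Matrix.mul_one, Matrix.mul_neg, Matrix.neg_mul, neg_neg, hprod,
        hdd', smul_smul, Matrix.zero_mul, neg_zero]
      refine ⟨?_, ?_, ?_, ?_⟩
      · abel
      · rw [← add_smul]; simp; field_simp; norm_num; rw [neg_div, div_self h2, neg_one_smul]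
      · rw [← add_smul]; simp; field_simp; norm_num; rw [neg_div, div_self h2, neg_one_smul]
      · abel)
    rw [e1, map_mul, proj_neg, one_mul]
  have hswap' : proj F n * W * (proj F n)⁻¹ = D 1 (-1) := by
    rw [← hswap]
    calc proj F n * (proj F n * D 1 (-1) * (proj F n)⁻¹) * (proj F n)⁻¹
        = proj F n * proj F n * D 1 (-1) * (proj F n * proj F n)⁻¹ := by group
      _ = D 1 (-1) := by rw [← map_mul, hnn, proj_neg]; simp
  refine ⟨orderOf_dvd_of_pow_eq_one (by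
    rw [pow_two, rfx, ← map_mul]
    exact (congrArg (proj F) hnn).trans proj_neg), ?_⟩
  have hkx : D x x ∈ klein Q := Subgroup.subset_closure (Or.inl ⟨x, hxQ, rfl⟩)
  have hky : D y y ∈ klein Q := Subgroup.subset_closure (Or.inl ⟨y, hyQ, rfl⟩)
  intro r hr
  refine conj_mem_klein ?_ ?_ ?_ hr
  · show ∀ q ∈ Q, proj F n * D q q * (proj F n)⁻¹ ∈ klein Q
    intro q hq
    have hx' := hmove x y hdx
    have hy' := hmove y x hdy
    have hxy' : proj F n * D (x * y) (x * y) * (proj F n)⁻¹ = D y y * D x x := by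
      rw [← D_mul, show proj F n * (D x x * D y y) * (proj F n)⁻¹ =
        proj F n * D x x * (proj F n)⁻¹ * (proj F n * D y y * (proj F n)⁻¹) by group, hx', hy']
    rcases mem_quaternion h2 hA hxQ hyQ hx hy hxy hq with
      (rfl | rfl) | (rfl | rfl) | (rfl | rfl) | (rfl | rfl) <;>
      simp only [D_neg, D_one, hx', hy', hxy', mul_one, mul_inv_cancel]
    exacts [one_mem _, one_mem _, hky, hky, hkx, hkx, mul_mem hky hkx, mul_mem hky hkx]
  · show proj F n * D 1 (-1) * (proj F n)⁻¹ ∈ klein Q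
    rw [hswap]
    exact Subgroup.subset_closure (Or.inr (Or.inr rfl))
  · show proj F n * W * (proj F n)⁻¹ ∈ klein Q
    rw [hswap']
    exact Subgroup.subset_closure (Or.inr (Or.inl rfl))

/-- In the quaternion case the normaliser is generated inside the local subgroup of `klein Q`. -/
theorem mem_closure_klein (h2 : (2 : F) ≠ 0) (hodd : Fintype.card F % 2 = 1) (hp : IsPGroup 2 (sylG Q))
    (hA : ∀ u ∈ Q, u ≠ 1 → u ≠ -1 → u * u = -1) {g : Cfsg.PSp 2 F} (hg : ∀ u ∈ sylG Q, g * u * g⁻¹ ∈ sylG Q) :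
    g ∈ Subgroup.closure {x : Cfsg.PSp 2 F | (∀ r ∈ klein Q, x * r * x⁻¹ ∈ klein Q) ∧ ∃ k : ℕ, orderOf x = 2 ^ k} := by
  set K := Subgroup.closure {x : Cfsg.PSp 2 F | (∀ r ∈ klein Q, x * r * x⁻¹ ∈ klein Q) ∧ ∃ k : ℕ, orderOf x = 2 ^ k}
  have hkq : ∀ q ∈ Q, D q q ∈ klein Q := fun q hq => Subgroup.subset_closure (Or.inl ⟨q, hq, rfl⟩)
  have hk0 : D (1 : SL) (-1) ∈ klein Q := Subgroup.subset_closure (Or.inr (Or.inl rfl))
  have hkW : (W : Cfsg.PSp 2 F) ∈ klein Q := Subgroup.subset_closure (Or.inr (Or.inr rfl))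
  have hUK : ∀ u ∈ sylG Q, u ∈ K := by
    intro u hu
    refine Subgroup.subset_closure ⟨?_, pow_two_pow_of_sylG hp hu⟩
    obtain ⟨a, ha, b, hb, huv⟩ := exists_of_mem hu
    have hD : ∀ r ∈ klein Q, D a b * r * (D a b)⁻¹ ∈ klein Q := fun r hr => by
      refine conj_mem_klein (fun q hq => ?_) ?_ ?_ hr
      · rw [D_inv, D_mul, D_mul]
        rcases comm_of_order_four h2 hA ha hq with h | h <;> rcases comm_of_order_four h2 hA hb hq with h' | h' <;>
          rw [h, h']
        · exact hkq q hq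
        · have e : D q (-q) = D q q * D 1 (-1) := by rw [D_mul, mul_one, mul_neg_one]
          rw [e]; exact mul_mem (hkq q hq) hk0
        · have e : D (-q) q = D q q * D 1 (-1) := by rw [D_mul, mul_one, mul_neg_one, ← D_neg, neg_neg]
          rw [e]; exact mul_mem (hkq q hq) hk0
        · rw [D_neg]; exact hkq q hq
      · rw [D_inv, D_mul, D_mul]
        simpa using hk0
      · rw [D_conj_W]
        have hq : a * b⁻¹ ∈ Q := mul_mem ha (inv_mem hb)
        set v := a * b⁻¹ with hv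
        rw [show b * a⁻¹ = v⁻¹ by rw [hv]; group]
        refine mul_mem ?_ hkW
        by_cases h1 : v = 1
        · rw [h1, inv_one, D_one]; exact one_mem _
        by_cases h1' : v = -1
        · rw [h1', show ((-1 : SL))⁻¹ = -1 from inv_eq_of_mul_eq_one_right (by simp), D_neg, D_one]
          exact one_mem _
        rw [inv_eq_neg (hA v hq h1 h1'), show D v (-v) = D v v * D 1 (-1) by rw [D_mul, mul_one, mul_neg_one]]
        exact mul_mem (hkq v hq) hk0
    rcases huv with rfl | rfl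
    · exact hD
    · intro r hr
      have := hD _ (mul_mem (mul_mem hkW hr) (inv_mem hkW))
      rw [_root_.mul_inv_rev]
      simpa [mul_assoc] using this
  obtain ⟨b, hb, u, hu, rfl⟩ := exists_of_normalizes h2 hodd hg
  refine mul_mem (hUK u hu) ?_
  obtain ⟨x, hx, y, hy, hxx, hyy, hxy⟩ := exists_pair h2 hodd Q
  have hzz : x * y * (x * y) = -1 := by
    calc x * y * (x * y) = x * y * (-(y * x)) := by rw [hxy]
      _ = -(x * (y * y) * x) := by rw [mul_neg]; group
      _ = x * x := by rw [hyy, mul_neg_one, neg_mul, neg_neg]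
      _ = -1 := hxx
  have hyz : y * (x * y) = -(x * y * y) := by rw [← mul_assoc, hxy, neg_mul, neg_neg]
  -- the element cycling the three lines
  have hdd1 := refl_sq hxx hyy hxy
  have hdd2 := refl_sq hyy hzz hyz
  have hdet : ∀ d : M2, d.adjugate = -d → d * d = (-2 : F) • 1 → d.det = 2 := fun d h h' => by
    have e := Matrix.mul_adjugate d
    rw [h, Matrix.mul_neg, h', neg_smul, neg_neg] at e
    have := congrFun (congrFun e 0) 0
    simpa using this.symm
  let c : SL := ⟨(2 : F)⁻¹ • ((x.1 - y.1) * (y.1 - (x * y).1)), by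
    rw [Matrix.det_smul, Matrix.det_mul, hdet _ (refl_adj h2 hxx hyy) hdd1, hdet _ (refl_adj h2 hyy hzz) hdd2,
      Fintype.card_fin]
    field_simp⟩
  have hcK : D c c ∈ K := by
    obtain ⟨ho1, hn1⟩ := rfx_spec h2 hodd hA hx hy hxx hyy hxy
    obtain ⟨ho2, hn2⟩ := rfx_spec h2 hodd hA hy (mul_mem hx hy) hyy hzz hyz
    have e : D c c = rfx h2 x y hxx hyy hxy * rfx h2 y (x * y) hyy hzz hyz := by
      rw [rfx, rfx, ← map_mul, D]
      congr 1
      refine Subtype.ext ?_
      show blk _ _ _ _ = blk _ _ _ _ * blk _ _ _ _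
      rw [blk_mul, blk_inj]
      simp only [Matrix.mul_neg, Matrix.neg_mul, neg_neg, smul_neg, Matrix.smul_mul, Matrix.mul_smul, smul_smul, c]
      have hh : (2 : F)⁻¹ = (2 : F)⁻¹ * 2⁻¹ + 2⁻¹ * 2⁻¹ := by field_simp; norm_num
      refine ⟨?_, by abel, by abel, ?_⟩ <;> rw [← add_smul, ← hh]
    rw [e]
    refine mul_mem (Subgroup.subset_closure ⟨hn1, ?_⟩) (Subgroup.subset_closure ⟨hn2, ?_⟩)
    · obtain ⟨i, -, hi⟩ := (Nat.dvd_prime_pow Nat.prime_two).1 (show _ ∣ 2 ^ 1 from ho1)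
      exact ⟨i, hi⟩
    · obtain ⟨i, -, hi⟩ := (Nat.dvd_prime_pow Nat.prime_two).1 (show _ ∣ 2 ^ 1 from ho2)
      exact ⟨i, hi⟩
  have hqK : ∀ q ∈ Q, D q q ∈ K := fun q hq => hUK _ (D_mem hq hq)
  obtain ⟨hc1, hc2⟩ := cycle_identity (sq_coe hxx) (sq_coe hyy) (anti_coe hxy)
  have hcx : c * x * c⁻¹ = y := mul_inv_eq_iff_eq_mul.2 (Subtype.ext (by
    show (2 : F)⁻¹ • ((x.1 - y.1) * (y.1 - x.1 * y.1)) * x.1 = y.1 * ((2 : F)⁻¹ • ((x.1 - y.1) * (y.1 - x.1 * y.1)))
    rw [Matrix.smul_mul, Matrix.mul_smul, hc1]))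
  have hcy : c * y * c⁻¹ = x * y := mul_inv_eq_iff_eq_mul.2 (Subtype.ext (by
    show (2 : F)⁻¹ • ((x.1 - y.1) * (y.1 - x.1 * y.1)) * y.1 =
      x.1 * y.1 * ((2 : F)⁻¹ • ((x.1 - y.1) * (y.1 - x.1 * y.1)))
    rw [Matrix.smul_mul, Matrix.mul_smul, hc2]))
  -- an element of `N(Q)` fixing the line of `x` lies in `Q`
  have hfix : ∀ b : SL, b ∈ Subgroup.normalizer ((Q : Subgroup SL) : Set SL) →
      (b * x * b⁻¹ = x ∨ b * x * b⁻¹ = -x) → b ∈ Q := by
    intro b hb hbx
    have hbx' : b * x = x * b ∨ b * x = -(x * b) := by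
      rcases hbx with h | h
      · exact Or.inl (mul_inv_eq_iff_eq_mul.1 h)
      · right; rw [mul_inv_eq_iff_eq_mul.1 h, neg_mul]
    have hby : b * y * b⁻¹ ∈ Q := (Subgroup.mem_normalizer_iff.1 hb y).1 hy
    have hsqy : b * y * b⁻¹ * (b * y * b⁻¹) = -1 := by
      rw [show b * y * b⁻¹ * (b * y * b⁻¹) = b * (y * y) * b⁻¹ by group, hyy]; simp
    have hne : ∀ z : SL, z * z = 1 → b * y * b⁻¹ ≠ z := fun z hz h => neg_one_ne_one h2 (by
      rw [← hsqy, h, hz])
    have hnx : b * y * b⁻¹ ≠ x ∧ b * y * b⁻¹ ≠ -x := by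
      have key : ∀ e : SL, e = x ∨ e = -x → b * y * b⁻¹ ≠ e := by
        intro e he h
        have hcomm : b * x * b⁻¹ * (b * y * b⁻¹) = b * y * b⁻¹ * (b * x * b⁻¹) := by
          rw [h]
          rcases hbx with h' | h' <;> rw [h'] <;> rcases he with rfl | rfl <;> simp
        have hc3 : x * y = y * x := by
          have h5 := congrArg (fun z => b⁻¹ * z * b) hcomm
          simpa [mul_assoc] using h5
        rw [hxy, neg_eq_iff_eq_neg] at hc3
        exact neg_one_ne_one h2 (mul_right_cancel (b := y * x) (by rw [neg_one_mul, one_mul, ← hc3]))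
      exact ⟨key x (Or.inl rfl), key (-x) (Or.inr rfl)⟩
    have hlast : b * y * b⁻¹ = x * y ∨ b * y * b⁻¹ = -(x * y) → b ∈ Q := by
      intro h
      -- then the square fixes both lines
      have hbb : b * b ∈ Q := by
        refine mem_of_fix_lines h2 hodd hx hy hxx hyy hxy ?_ ?_
        · left
          rcases hbx' with h' | h'
          · rw [mul_assoc, h', ← mul_assoc, h', mul_assoc]
          · rw [mul_assoc, h', mul_neg, ← mul_assoc, h', neg_mul, neg_neg, mul_assoc]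
        · have e : b * b * y = b * (b * y * b⁻¹) * b := by group
          have e' : b * (x * y) = (b * x * b⁻¹) * (b * y * b⁻¹) * b := by group
          rcases hbx with hb1 | hb1 <;> rcases h with h' | h' <;>
            simp only [hb1, h', mul_neg, neg_mul, neg_neg, ← mul_assoc x x y, hxx, neg_one_mul] at e e' <;>
            simp only [e', neg_mul, neg_neg, mul_assoc] at e
          all_goals simp only [one_mul, mul_assoc] at e ⊢
          all_goals first | exact Or.inl e | exact Or.inr e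
      obtain ⟨l, hl⟩ := exists_pow_two hbb
      exact mem_of_normalizer hb hbb hl
    rcases mem_quaternion h2 hA hx hy hxx hyy hxy hby with (h | h) | (h | h) | h | h
    · exact absurd h (hne 1 (one_mul 1))
    · exact absurd h (hne (-1) (by simp))
    · exact absurd h hnx.1
    · exact absurd h hnx.2
    · refine mem_of_fix_lines h2 hodd hx hy hxx hyy hxy hbx' ?_
      rcases h with h | h
      · exact Or.inl (mul_inv_eq_iff_eq_mul.1 h)
      · right; rw [mul_inv_eq_iff_eq_mul.1 h, neg_mul]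
    · exact hlast h
  have hcz : c * (x * y) * c⁻¹ = x := by
    calc c * (x * y) * c⁻¹ = c * x * c⁻¹ * (c * y * c⁻¹) := by group
      _ = y * (x * y) := by rw [hcx, hcy]
      _ = x := by rw [hyz, mul_assoc, hyy, mul_neg_one, neg_neg]
  have hcN : c ∈ Subgroup.normalizer ((Q : Subgroup SL) : Set SL) := by
    refine CfsgLib.AltSylowTwo.mem_normalizer_of_forall fun q hq => ?_
    have hm : -(1 : SL) ∈ Q := neg_one_mem h2 hodd Q
    rcases mem_quaternion h2 hA hx hy hxx hyy hxy hq with (rfl | rfl) | (rfl | rfl) | (rfl | rfl) | (rfl | rfl) <;>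
      simp only [mul_one, mul_inv_cancel, mul_neg, neg_mul, hcx, hcy, hcz]
    exacts [one_mem _, hm, hy, neg_mem h2 hodd hy, mul_mem hx hy, neg_mem h2 hodd (mul_mem hx hy), hx,
      neg_mem h2 hodd hx]
  have hbxQ : b * x * b⁻¹ ∈ Q := (Subgroup.mem_normalizer_iff.1 hb x).1 hx
  have hsqx : b * x * b⁻¹ * (b * x * b⁻¹) = -1 := by
    rw [show b * x * b⁻¹ * (b * x * b⁻¹) = b * (x * x) * b⁻¹ by group, hxx]; simp
  rcases mem_quaternion h2 hA hx hy hxx hyy hxy hbxQ with (h | h) | h | h | h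
  · exfalso; rw [h, one_mul] at hsqx; exact neg_one_ne_one h2 hsqx.symm
  · exfalso; rw [h, neg_mul_neg, one_mul] at hsqx; exact neg_one_ne_one h2 hsqx.symm
  · exact hqK b (hfix b hb h)
  · -- `b` sends `x` to `± y`
    have hq : c⁻¹ * b ∈ Q := by
      refine hfix _ (mul_mem (inv_mem hcN) hb) ?_
      have e : c⁻¹ * b * x * (c⁻¹ * b)⁻¹ = c⁻¹ * (b * x * b⁻¹) * c := by group
      have ey : c⁻¹ * y * c = x := by rw [← hcx]; group
      rw [e]
      rcases h with h | h <;> rw [h]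
      · exact Or.inl ey
      · right; rw [mul_neg, neg_mul, ey]
    have := mul_mem hcK (hqK _ hq)
    rwa [D_mul, mul_inv_cancel_left] at this
  · have hq : c * b ∈ Q := by
      refine hfix _ (mul_mem hcN hb) ?_
      have e : c * b * x * (c * b)⁻¹ = c * (b * x * b⁻¹) * c⁻¹ := by group
      rw [e]
      rcases h with h | h <;> rw [h]
      · exact Or.inl hcz
      · right; rw [mul_neg, neg_mul, hcz]
    have := mul_mem (inv_mem hcK) (hqK _ hq)
    rwa [D_inv, D_mul, inv_mul_cancel_left] at this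

end Refl

/-- The 2-fusion system of `PSp(4, F)` is simple for odd `|F|`. -/
theorem isSimple_psp_four (hodd : Fintype.card F % 2 = 1) (S : Sylow 2 (Cfsg.PSp 2 F)) :
    (Cfsg.groupFusionSystem (S : Subgroup (Cfsg.PSp 2 F))).IsSimple 2 := by
  classical
  haveI : Fact (Nat.Prime 2) := ⟨Nat.prime_two⟩
  haveI : Finite (Cfsg.PSp 2 F) := Finite.of_surjective _ proj_surjective
  have h2 : (2 : F) ≠ 0 := by
    refine Ring.two_ne_zero fun h => ?_
    have := (FiniteField.even_card_iff_char_two (F := F)).mp h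
    omega
  let Q : Sylow 2 SL := default
  obtain ⟨P, hP⟩ := exists_sylow_wr hodd Q
  let U : Sylow 2 (Cfsg.PSp 2 F) := P.mapSurjective proj_surjective
  have hU : (U : Subgroup (Cfsg.PSp 2 F)) = sylG Q := by rw [sylG, ← hP]; rfl
  have hp : IsPGroup 2 (sylG Q) := hU ▸ U.isPGroup'
  have hmem : ∀ {u}, u ∈ U ↔ u ∈ sylG Q := fun {u} => by rw [← hU]; rfl
  have hne : (U : Subgroup (Cfsg.PSp 2 F)) ≠ ⊥ := fun h => by
    have hW := (hmem (u := W)).2 W_mem
    have hW' : (W : Cfsg.PSp 2 F) ∈ (U : Subgroup (Cfsg.PSp 2 F)) := hW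
    rw [h] at hW'
    have h3 : (W : Cfsg.PSp 2 F) = 1 := hW'
    exact D_ne_DW 1 1 1 1 (by rw [h3, mul_one])
  by_cases hA : ∀ u ∈ Q, u ≠ 1 → u ≠ -1 → u * u = -1
  · refine CfsgLib.Fusion.isSimple_of_cover 2 (MonoidHom.id _) Function.surjective_id (by simp)
      (by intro z hz _ _; simpa using hz) U hne ?_ (fun _ : Unit => klein Q) (fun _ => hU ▸ klein_le h2 hodd Q)
      ?_ ?_ ?_ S
    · intro T hT hT0 hcl
      rw [hU] at hT ⊢
      exact sylG_le_of_closed h2 hodd hp hT hT0 fun g t ht hg => hcl g t ht (hmem.2 hg)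
    · intro _ u hu r hr
      obtain ⟨a, ha, b, hb, huv⟩ := exists_of_mem (hmem.1 hu)
      have hk0 : D (1 : SL) (-1) ∈ klein Q := Subgroup.subset_closure (Or.inr (Or.inl rfl))
      have hkW : (W : Cfsg.PSp 2 F) ∈ klein Q := Subgroup.subset_closure (Or.inr (Or.inr rfl))
      have hkq : ∀ q ∈ Q, D q q ∈ klein Q := fun q hq => Subgroup.subset_closure (Or.inl ⟨q, hq, rfl⟩)
      have hD : ∀ r ∈ klein Q, D a b * r * (D a b)⁻¹ ∈ klein Q := fun r hr => by
        refine conj_mem_klein (fun q hq => ?_) ?_ ?_ hr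
        · rw [D_inv, D_mul, D_mul]
          rcases comm_of_order_four h2 hA ha hq with h | h <;> rcases comm_of_order_four h2 hA hb hq with h' | h' <;>
            rw [h, h']
          · exact hkq q hq
          · have e : D q (-q) = D q q * D 1 (-1) := by rw [D_mul, mul_one, mul_neg_one]
            rw [e]; exact mul_mem (hkq q hq) hk0
          · have e : D (-q) q = D q q * D 1 (-1) := by rw [D_mul, mul_one, mul_neg_one, ← D_neg, neg_neg]
            rw [e]; exact mul_mem (hkq q hq) hk0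
          · rw [D_neg]; exact hkq q hq
        · rw [D_inv, D_mul, D_mul]
          simpa using hk0
        · rw [D_conj_W]
          have hq : a * b⁻¹ ∈ Q := mul_mem ha (inv_mem hb)
          set v := a * b⁻¹ with hv
          rw [show b * a⁻¹ = v⁻¹ by rw [hv]; group]
          refine mul_mem ?_ hkW
          by_cases h1 : v = 1
          · rw [h1, inv_one, D_one]; exact one_mem _
          by_cases h1' : v = -1
          · rw [h1', show ((-1 : SL))⁻¹ = -1 from inv_eq_of_mul_eq_one_right (by simp), D_neg, D_one]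
            exact one_mem _
          rw [inv_eq_neg (hA v hq h1 h1'), show D v (-v) = D v v * D 1 (-1) by rw [D_mul, mul_one, mul_neg_one]]
          exact mul_mem (hkq v hq) hk0
      rcases huv with rfl | rfl
      · exact hD r hr
      · have := hD _ (mul_mem (mul_mem hkW hr) (inv_mem hkW))
        rw [_root_.mul_inv_rev]
        simpa [mul_assoc] using this
    · intro _ g hg
      refine ⟨1, one_mem _, ?_⟩
      rw [one_mul]
      have hg' : ∀ y, y ∈ klein Q → g * y * g⁻¹ = y := fun y hy => mul_inv_eq_iff_eq_mul.2 (hg y hy)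
      have hk0 : D (1 : SL) (-1) ∈ klein Q := Subgroup.subset_closure (Or.inr (Or.inl rfl))
      have hkW : (W : Cfsg.PSp 2 F) ∈ klein Q := Subgroup.subset_closure (Or.inr (Or.inr rfl))
      have hkq : ∀ q ∈ Q, D q q ∈ klein Q := fun q hq => Subgroup.subset_closure (Or.inl ⟨q, hq, rfl⟩)
      have main : ∀ a b : SL, (∀ r ∈ klein Q, D a b * r = r * D a b) → D a b ∈ klein Q := by
        intro a b hab
        have hW := hab W hkW
        rw [W_D] at hW
        have hba := D_eq (mul_right_cancel hW)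
        obtain ⟨x, hx, y, hy, hxx, hyy, hxy⟩ := exists_pair h2 hodd Q
        have hcm : ∀ q ∈ Q, a * q = q * a ∨ a * q = -(q * a) := fun q hq => by
          have h := hab _ (hkq q hq)
          rw [D_mul, D_mul] at h
          rcases D_eq h with h | h
          exacts [Or.inl h.1, Or.inr h.1]
        have haQ := mem_of_fix_lines h2 hodd hx hy hxx hyy hxy (hcm x hx) (hcm y hy)
        rcases hba with ⟨h, -⟩ | ⟨h, -⟩
        · rw [← h]; exact hkq a haQ
        · have e : D a b = D a a * D 1 (-1) := by rw [D_mul, mul_one, mul_neg_one, h, neg_neg]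
          rw [e]; exact mul_mem (hkq a haQ) hk0
      obtain ⟨a, b, rfl | rfl⟩ := exists_D_of_comm h2 (hg' _ hk0)
      · exact main a b hg
      · refine mul_mem hkW (main a b fun r hr => ?_)
        have hcW : ∀ r ∈ klein Q, W * r = r * W := by
          intro r hr
          induction hr using Subgroup.closure_induction with
          | mem z hz =>
            rcases hz with ⟨q, -, rfl⟩ | rfl | rfl
            · exact W_D q q
            · rw [W_D, ← D_neg, neg_neg]
            · rfl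
          | one => simp
          | mul x y _ _ hx hy => rw [← mul_assoc, hx, mul_assoc, hy, mul_assoc]
          | inv x _ hx =>
            have h5 := congrArg (fun z => x⁻¹ * z * x⁻¹) hx
            simpa [mul_assoc] using h5.symm
        have h := hg r hr
        calc D a b * r = W⁻¹ * (W * D a b * r) := by group
          _ = W⁻¹ * (r * (W * D a b)) := by rw [h]
          _ = W⁻¹ * (r * W) * D a b := by group
          _ = W⁻¹ * (W * r) * D a b := by rw [hcW r hr]
          _ = r * D a b := by group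
    · intro g hg
      refine Subgroup.mem_sup_right (Subgroup.mem_iSup_of_mem () ⟨?_, ?_⟩)
      · exact CfsgLib.AltSylowTwo.mem_normalizer_of_forall hg
      · exact mem_closure_klein h2 hodd hp hA fun u hu => hmem.1 (hg u (hmem.2 hu))
  · push Not at hA
    have hN : ∀ g, (∀ u ∈ U, g * u * g⁻¹ ∈ U) → g ∈ U := by
      intro g hg
      obtain ⟨b, hb, u, hu, rfl⟩ := exists_of_normalizes h2 hodd fun u hu => hmem.1 (hg u (hmem.2 hu))
      have hbQ := normalizer_eq_of_large h2 hodd hA hb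
      exact hmem.2 (mul_mem hu (D_mem hbQ hbQ))
    refine CfsgLib.Fusion.isSimple_of_cover 2 (MonoidHom.id _) Function.surjective_id (by simp)
      (by intro z hz _ _; simpa using hz) U hne ?_ (fun _ : Unit => (U : Subgroup (Cfsg.PSp 2 F))) (fun _ => le_rfl)
      ?_ ?_ ?_ S
    · intro T hT hT0 hcl
      rw [hU] at hT ⊢
      exact sylG_le_of_closed h2 hodd hp hT hT0 fun g t ht hg => hcl g t ht (hmem.2 hg)
    · intro _ u hu r hr
      exact mul_mem (mul_mem hu hr) (inv_mem hu)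
    · intro _ g hg
      refine ⟨1, one_mem _, ?_⟩
      rw [one_mul]
      exact hN g fun u hu => by rwa [mul_inv_eq_iff_eq_mul.2 (hg u hu)]
    · intro g hg
      have hgU := hN g hg
      refine Subgroup.mem_sup_right (Subgroup.mem_iSup_of_mem () ⟨?_, ?_⟩)
      · exact CfsgLib.AltSylowTwo.mem_normalizer_of_forall hg
      · exact Subgroup.subset_closure ⟨fun r hr => mul_mem (mul_mem hgU hr) (inv_mem hgU),
          pow_two_pow_of_sylG hp (hmem.1 hgU)⟩

end CfsgLib.PSpFour
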