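import Cfsg.Agent.PSpFour.QuatSylow
import Cfsg.Agent.SpGeom.Order
import Cfsg.Agent.SL2.Basic
import Cfsg.Agent.Symp.Basic

/-!
`Sp(4, F)` as 2 × 2 matrices over 2 × 2 matrices, and a Sylow 2-subgroup for `F` of odd order.
-/

set_option autoImplicit false

namespace CfsgLib.PSpFour

open Matrix

variable {F : Type*} [Field F]

local notation "SL" => SpecialLinearGroup (Fin 2) F
local notation "M2" => Matrix (Fin 2) (Fin 2) F
local notation "M4" => Matrix (Fin 2 ⊕ Fin 2) (Fin 2 ⊕ Fin 2) F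
local notation "H4" => Matrix.symplecticGroup (Fin 2) F

/-- The pair (block, coordinate) of an index. -/
def idx : Fin 2 ⊕ Fin 2 → Fin 2 × Fin 2 := Sum.elim (fun i => (i, 0)) (fun i => (i, 1))

/-- The matrix with blocks `A, B, C, D`. -/
def blk (A B C D : M2) : M4 :=
  Matrix.of fun i j => (!![A, B; C, D] : Matrix (Fin 2) (Fin 2) M2) (idx i).1 (idx j).1 (idx i).2 (idx j).2

theorem blk_mul (A B C D A' B' C' D' : M2) :
    blk A B C D * blk A' B' C' D' = blk (A * A' + B * C') (A * B' + B * D') (C * A' + D * C') (C * B' + D * D') := by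
  ext i j
  rcases i with i | i <;> rcases j with j | j <;> fin_cases i <;> fin_cases j <;>
    simp [blk, idx, Matrix.mul_apply, Fintype.sum_sum_type, Fin.sum_univ_two] <;> ring

theorem blk_one : blk (1 : M2) 0 0 1 = 1 := by
  ext i j
  rcases i with i | i <;> rcases j with j | j <;> fin_cases i <;> fin_cases j <;> simp [blk, idx]

theorem blk_neg (A B C D : M2) : blk (-A) (-B) (-C) (-D) = -blk A B C D := by
  ext i j
  rcases i with i | i <;> rcases j with j | j <;> fin_cases i <;> fin_cases j <;> simp [blk, idx]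

theorem blk_inj {A B C D A' B' C' D' : M2} :
    blk A B C D = blk A' B' C' D' ↔ A = A' ∧ B = B' ∧ C = C' ∧ D = D' := by
  refine ⟨fun h => ?_, fun ⟨h1, h2, h3, h4⟩ => by rw [h1, h2, h3, h4]⟩
  have e : ∀ i j, blk A B C D i j = blk A' B' C' D' i j := fun i j => by rw [h]
  refine ⟨?_, ?_, ?_, ?_⟩ <;> ext k l <;> fin_cases k <;> fin_cases l
  · simpa [blk, idx] using e (Sum.inl 0) (Sum.inl 0)
  · simpa [blk, idx] using e (Sum.inl 0) (Sum.inr 0)
  · simpa [blk, idx] using e (Sum.inr 0) (Sum.inl 0)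
  · simpa [blk, idx] using e (Sum.inr 0) (Sum.inr 0)
  · simpa [blk, idx] using e (Sum.inl 0) (Sum.inl 1)
  · simpa [blk, idx] using e (Sum.inl 0) (Sum.inr 1)
  · simpa [blk, idx] using e (Sum.inr 0) (Sum.inl 1)
  · simpa [blk, idx] using e (Sum.inr 0) (Sum.inr 1)
  · simpa [blk, idx] using e (Sum.inl 1) (Sum.inl 0)
  · simpa [blk, idx] using e (Sum.inl 1) (Sum.inr 0)
  · simpa [blk, idx] using e (Sum.inr 1) (Sum.inl 0)
  · simpa [blk, idx] using e (Sum.inr 1) (Sum.inr 0)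
  · simpa [blk, idx] using e (Sum.inl 1) (Sum.inl 1)
  · simpa [blk, idx] using e (Sum.inl 1) (Sum.inr 1)
  · simpa [blk, idx] using e (Sum.inr 1) (Sum.inl 1)
  · simpa [blk, idx] using e (Sum.inr 1) (Sum.inr 1)

theorem exists_blk (X : M4) : ∃ A B C D, X = blk A B C D := by
  let bl : Fin 2 → Fin 2 → M2 := fun a b => Matrix.of fun k l =>
    X (![Sum.inl a, Sum.inr a] k) (![Sum.inl b, Sum.inr b] l)
  refine ⟨bl 0 0, bl 0 1, bl 1 0, bl 1 1, ?_⟩
  ext i j
  rcases i with i | i <;> rcases j with j | j <;> fin_cases i <;> fin_cases j <;> simp [blk, idx, bl]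

/-- The symplectic condition in block form. -/
theorem blk_mem {A B C D : M2} (h1 : A * A.adjugate + B * B.adjugate = 1)
    (h2 : A * C.adjugate + B * D.adjugate = 0) (h3 : C * A.adjugate + D * B.adjugate = 0)
    (h4 : C * C.adjugate + D * D.adjugate = 1) : blk A B C D ∈ H4 := by
  rw [SymplecticGroup.mem_iff]
  set w : M2 := !![0, -1; 1, 0] with hw
  have hJ : Matrix.J (Fin 2) F = blk w 0 0 w := by
    ext i j
    rcases i with i | i <;> rcases j with j | j <;> fin_cases i <;> fin_cases j <;> simp [blk, idx, hw, Matrix.J]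
  have hT : (blk A B C D)ᵀ = blk Aᵀ Cᵀ Bᵀ Dᵀ := by
    ext i j
    rcases i with i | i <;> rcases j with j | j <;> fin_cases i <;> fin_cases j <;> simp [blk, idx]
  have hadj : ∀ X : M2, w * Xᵀ = X.adjugate * w := fun X => by
    ext i j
    fin_cases i <;> fin_cases j <;> simp [hw, Matrix.mul_apply, Fin.sum_univ_two, Matrix.adjugate_fin_two]
  rw [hJ, hT, blk_mul, blk_mul, blk_inj]
  simp only [Matrix.mul_zero, add_zero, zero_add, Matrix.mul_assoc, hadj]
  simp only [← Matrix.mul_assoc, ← Matrix.add_mul, h1, h2, h3, h4, Matrix.one_mul, Matrix.zero_mul, and_self]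

theorem adjugate_coe_mul (a : SL) : a.1 * a.1.adjugate = 1 := by
  rw [Matrix.mul_adjugate, a.2, one_smul]

/-- The block diagonal embedding. -/
def dia : SL × SL →* H4 where
  toFun x := ⟨blk x.1.1 0 0 x.2.1, blk_mem (by simp [adjugate_coe_mul]) (by simp) (by simp) (by simp [adjugate_coe_mul])⟩
  map_one' := Subtype.ext (by simpa using blk_one)
  map_mul' x y := Subtype.ext (by
    show blk _ _ _ _ = blk _ _ _ _ * blk _ _ _ _
    rw [blk_mul]
    simp)

theorem dia_coe (a b : SL) : ((dia (a, b) : H4) : M4) = blk a.1 0 0 b.1 := rfl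

/-- The exchange of the two blocks. -/
def swp : H4 := ⟨blk 0 1 1 0, blk_mem (by simp) (by simp) (by simp) (by simp)⟩

theorem swp_coe : ((swp : H4) : M4) = blk 0 1 1 0 := rfl

theorem swp_mul_self : (swp : H4) * swp = 1 := Subtype.ext (by
  show blk _ _ _ _ * blk _ _ _ _ = _
  rw [blk_mul]
  simp [blk_one])

theorem swp_inv : (swp : H4)⁻¹ = swp := inv_eq_of_mul_eq_one_right swp_mul_self

theorem swp_dia (a b : SL) : (swp : H4) * dia (a, b) = dia (b, a) * swp := Subtype.ext (by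
  show blk _ _ _ _ * blk _ _ _ _ = blk _ _ _ _ * blk _ _ _ _
  rw [blk_mul, blk_mul]
  simp)

theorem dia_injective : Function.Injective (dia : SL × SL →* H4) := fun x y h => by
  obtain ⟨h1, -, -, h4⟩ := blk_inj.1 (congrArg Subtype.val h)
  exact Prod.ext (Subtype.ext h1) (Subtype.ext h4)

theorem dia_ne_dia_swp (a b a' b' : SL) : dia (a, b) ≠ (dia (a', b') : H4) * swp := fun h => by
  have h' : blk a.1 0 0 b.1 = blk a'.1 0 0 b'.1 * blk 0 1 1 0 := congrArg Subtype.val h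
  rw [blk_mul, blk_inj] at h'
  have h1 : a.1 = 0 := by simpa using h'.1
  have := a.2
  rw [h1] at this
  simp at this

theorem dia_neg_one : ((dia (-1, -1) : H4) : M4) = -1 := by
  rw [dia_coe, ← blk_one, ← blk_neg]
  simp

/-- The reflection product attached to a trace zero `d` with `d * d = -2`. -/
def refl (h2 : (2 : F) ≠ 0) (d : M2) (hd : d.adjugate = -d) (hdd : d * d = (-2 : F) • 1) : H4 :=
  ⟨blk ((2 : F)⁻¹ • d) ((2 : F)⁻¹ • d) ((2 : F)⁻¹ • d) (-((2 : F)⁻¹ • d)), by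
    have h : ((2 : F)⁻¹ • d).adjugate = -((2 : F)⁻¹ • d) := by
      rw [Matrix.adjugate_smul, hd]; simp
    have h' : (-((2 : F)⁻¹ • d)).adjugate = (2 : F)⁻¹ • d := by
      rw [← neg_smul, Matrix.adjugate_smul, hd]; simp
    have e : ((2 : F)⁻¹ • d) * ((2 : F)⁻¹ • d) = (-(2 : F)⁻¹) • (1 : M2) := by
      rw [Matrix.smul_mul, Matrix.mul_smul, hdd, smul_smul, smul_smul]
      congr 1
      field_simp
    refine blk_mem ?_ ?_ ?_ ?_ <;> simp only [h, h', Matrix.mul_neg, Matrix.neg_mul, e]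
    · rw [← neg_smul, neg_neg, ← add_smul]
      norm_num
      rw [show (2 : F)⁻¹ + 2⁻¹ = 1 by field_simp; norm_num, one_smul]
    · abel
    · abel
    · rw [← neg_smul, neg_neg, ← add_smul]
      norm_num
      rw [show (2 : F)⁻¹ + 2⁻¹ = 1 by field_simp; norm_num, one_smul]⟩

/-- The element carrying `dia (1, -1)` to the exchange of the blocks. -/
def halfRot (h2 : (2 : F) ≠ 0) : H4 :=
  ⟨blk !![(2 : F)⁻¹, 0; 0, 1] !![(2 : F)⁻¹, 0; 0, 1] !![(2 : F)⁻¹, 0; 0, 1] (-!![(2 : F)⁻¹, 0; 0, 1]), by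
    have e : (!![(2 : F)⁻¹, 0; 0, 1] : M2) * (!![(2 : F)⁻¹, 0; 0, 1] : M2).adjugate = (2 : F)⁻¹ • 1 := by
      rw [Matrix.mul_adjugate]; simp [det_fin_two]
    have e' : (-!![(2 : F)⁻¹, 0; 0, 1] : M2).adjugate = -(!![(2 : F)⁻¹, 0; 0, 1] : M2).adjugate := by
      ext i j; fin_cases i <;> fin_cases j <;> simp [Matrix.adjugate_fin_two]
    have h1 : (2 : F)⁻¹ + 2⁻¹ = 1 := by field_simp; norm_num
    refine blk_mem ?_ ?_ ?_ ?_ <;> simp only [e', Matrix.mul_neg, Matrix.neg_mul, neg_neg, e]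
    · rw [← add_smul, h1, one_smul]
    · abel
    · abel
    · rw [← add_smul, h1, one_smul]⟩

theorem swp_mul_halfRot (h2 : (2 : F) ≠ 0) : (swp : H4) * halfRot h2 = halfRot h2 * dia (1, -1) := Subtype.ext (by
  show blk _ _ _ _ * blk _ _ _ _ = blk _ _ _ _ * blk _ _ _ _
  rw [blk_mul, blk_mul]
  simp)

/-- Block diagonal elements and their exchanged translates over a subgroup of `SL(2, F)`. -/
def wr (Q : Subgroup SL) : Subgroup H4 where
  carrier := {x | ∃ a ∈ Q, ∃ b ∈ Q, x = dia (a, b) ∨ x = dia (a, b) * swp}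
  one_mem' := ⟨1, Q.one_mem, 1, Q.one_mem, Or.inl (map_one dia).symm⟩
  mul_mem' := by
    rintro _ _ ⟨a, ha, b, hb, rfl | rfl⟩ ⟨a', ha', b', hb', rfl | rfl⟩
    · exact ⟨_, Q.mul_mem ha ha', _, Q.mul_mem hb hb', Or.inl (map_mul dia _ _).symm⟩
    · exact ⟨_, Q.mul_mem ha ha', _, Q.mul_mem hb hb', Or.inr (by
        rw [← mul_assoc, ← map_mul, Prod.mk_mul_mk])⟩
    · exact ⟨_, Q.mul_mem ha hb', _, Q.mul_mem hb ha', Or.inr (by
        rw [mul_assoc, swp_dia, ← mul_assoc, ← map_mul, Prod.mk_mul_mk])⟩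
    · exact ⟨_, Q.mul_mem ha hb', _, Q.mul_mem hb ha', Or.inl (by
        rw [mul_assoc, ← mul_assoc swp, swp_dia, mul_assoc, swp_mul_self, mul_one, ← map_mul, Prod.mk_mul_mk])⟩
  inv_mem' := by
    rintro _ ⟨a, ha, b, hb, rfl | rfl⟩
    · exact ⟨_, Q.inv_mem ha, _, Q.inv_mem hb, Or.inl (map_inv dia _).symm⟩
    · refine ⟨_, Q.inv_mem hb, _, Q.inv_mem ha, Or.inr ?_⟩
      rw [_root_.mul_inv_rev, swp_inv, ← map_inv, Prod.inv_mk, swp_dia]

theorem card_wr [Finite F] (Q : Subgroup SL) : Nat.card (wr Q) = 2 * Nat.card Q ^ 2 := by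
  have E : (Q × Q) ⊕ (Q × Q) ≃ wr Q := Equiv.ofBijective (fun e => match e with
      | Sum.inl x => ⟨dia (x.1.1, x.2.1), _, x.1.2, _, x.2.2, Or.inl rfl⟩
      | Sum.inr x => ⟨dia (x.1.1, x.2.1) * swp, _, x.1.2, _, x.2.2, Or.inr rfl⟩) ⟨by
    rintro (⟨a, b⟩ | ⟨a, b⟩) (⟨a', b'⟩ | ⟨a', b'⟩) h <;> have h' := congrArg Subtype.val h
    · have h'' := dia_injective h'
      simp only [Prod.mk.injEq] at h''
      rw [Subtype.ext h''.1, Subtype.ext h''.2]
    · exact absurd h' (dia_ne_dia_swp _ _ _ _)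
    · exact absurd h'.symm (dia_ne_dia_swp _ _ _ _)
    · have h'' := dia_injective (mul_right_cancel h')
      simp only [Prod.mk.injEq] at h''
      rw [Subtype.ext h''.1, Subtype.ext h''.2], by
    rintro ⟨_, a, ha, b, hb, rfl | rfl⟩
    · exact ⟨Sum.inl (⟨a, ha⟩, ⟨b, hb⟩), rfl⟩
    · exact ⟨Sum.inr (⟨a, ha⟩, ⟨b, hb⟩), rfl⟩⟩
  rw [← Nat.card_congr E, Nat.card_sum, Nat.card_prod]
  ring

theorem exists_sylow_wr [Fintype F] (hodd : Fintype.card F % 2 = 1) (Q : Sylow 2 SL) :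
    ∃ P : Sylow 2 H4, (P : Subgroup H4) = wr (Q : Subgroup SL) := by
  haveI : Fact (Nat.Prime 2) := ⟨Nat.prime_two⟩
  obtain ⟨k, hk⟩ := IsPGroup.iff_card.1 Q.isPGroup'
  have hp : IsPGroup 2 (wr (Q : Subgroup SL)) :=
    IsPGroup.of_card (n := 2 * k + 1) (by rw [card_wr, hk]; ring)
  refine ⟨hp.toSylow ?_, rfl⟩
  intro hd
  have h1 := (wr (Q : Subgroup SL)).card_mul_index
  rw [card_wr, CfsgLib.SpGeom.card_Sp] at h1
  have h3 := (Q : Subgroup SL).card_mul_index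
  rw [CfsgLib.SL2.card_SL2] at h3
  have h4 := Q.not_dvd_index
  obtain ⟨a, ha⟩ : Odd (Fintype.card F) := Nat.odd_iff.2 hodd
  set q := Fintype.card F with hq
  have hq1 : 1 ≤ q ^ 2 := Nat.one_le_pow _ _ (by omega)
  have hexp : q ^ 4 * ((q ^ 2 - 1) * (q ^ 4 - 1)) = (q * (q ^ 2 - 1)) ^ 2 * (q ^ 2 * (q ^ 2 + 1)) := by
    have e : q ^ 4 - 1 = (q ^ 2 - 1) * (q ^ 2 + 1) := by
      rw [mul_comm, ← Nat.sq_sub_sq, one_pow, ← pow_mul]
    rw [e]; ring
  rw [show (2 : ℕ) ^ 2 = 4 by norm_num, Finset.prod_range_succ, Finset.prod_range_succ, Finset.prod_range_zero,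
    one_mul, show 2 * (0 + 1) = 2 by norm_num, show 2 * (1 + 1) = 4 by norm_num, hexp, ← h3] at h1
  set n := Nat.card (Q : Subgroup SL)
  set i := (Q : Subgroup SL).index
  set j := (wr (Q : Subgroup SL)).index
  have hodd2 : q ^ 2 + 1 = 2 * (2 * (a * a + a) + 1) := by rw [ha]; ring
  have h6 : 2 * n ^ 2 * j = 2 * n ^ 2 * (i ^ 2 * q ^ 2 * (2 * (a * a + a) + 1)) := by
    rw [h1, hodd2]; ring
  have hn0 : n ≠ 0 := Nat.card_pos.ne'
  have h7 := Nat.eq_of_mul_eq_mul_left (by positivity) h6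
  rw [h7] at hd
  rcases (Nat.prime_two.dvd_mul).1 hd with h | h
  · rcases (Nat.prime_two.dvd_mul).1 h with h' | h'
    · exact h4 (Nat.prime_two.dvd_of_dvd_pow h')
    · have := Nat.prime_two.dvd_of_dvd_pow h'
      omega
  · omega

end CfsgLib.PSpFour
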