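import Mathlib
import Cfsg.Agent.AltSylowTwo.Basic

/-!
Sylow 2-subgroups of `SL(2, F)`, `F` of odd order: inverting elements of order 4, the centraliser, and
the normaliser.
-/

set_option autoImplicit false

namespace CfsgLib.PSpFour

open Matrix

variable {F : Type*} [Field F]

local notation "SL" => SpecialLinearGroup (Fin 2) F

theorem det_eq (a : SL) : a.1 0 0 * a.1 1 1 - a.1 0 1 * a.1 1 0 = 1 :=
  (det_fin_two a.1).symm.trans a.2

theorem mul_self_coe_of_trace {x : Matrix (Fin 2) (Fin 2) F} (hx : x 0 0 + x 1 1 = 0) :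
    x * x = (-x.det) • (1 : Matrix (Fin 2) (Fin 2) F) := by
  have hd : x 1 1 = -x 0 0 := by linear_combination hx
  ext i j
  fin_cases i <;> fin_cases j <;> simp [Matrix.mul_apply, Fin.sum_univ_two, det_fin_two, hd] <;> ring

theorem sq_of_trace {j : SL} (h : j.1 0 0 + j.1 1 1 = 0) : j * j = -1 := by
  refine Subtype.ext ?_
  show j.1 * j.1 = _
  rw [mul_self_coe_of_trace h, j.2]
  simp

theorem trace_of_sq (h2 : (2 : F) ≠ 0) {j : SL} (h : j * j = -1) : j.1 0 0 + j.1 1 1 = 0 := by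
  have hm : j.1 * j.1 = -1 := by
    have := congrArg Subtype.val h
    simpa using this
  have h00 := congrFun (congrFun hm 0) 0
  have h11 := congrFun (congrFun hm 1) 1
  simp [Matrix.mul_apply, Fin.sum_univ_two] at h00 h11
  have hd := det_eq j
  have : (j.1 0 0 + j.1 1 1) ^ 2 = 0 := by linear_combination h00 + h11 + 2 * hd
  exact pow_eq_zero_iff two_ne_zero |>.1 this

theorem neg_one_ne_one (h2 : (2 : F) ≠ 0) : (-1 : SL) ≠ 1 := fun h => h2 (by
  have := congrArg (fun a : SL => a.1 0 0) h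
  simp at this
  linear_combination -this)

theorem eq_one_or_of_sq (h2 : (2 : F) ≠ 0) {x : SL} (h : x * x = 1) : x = 1 ∨ x = -1 := by
  have hm : x.1 * x.1 = 1 := congrArg Subtype.val h
  have hd := det_eq x
  have e00 := congrFun (congrFun hm 0) 0
  have e01 := congrFun (congrFun hm 0) 1
  have e10 := congrFun (congrFun hm 1) 0
  have e11 := congrFun (congrFun hm 1) 1
  simp [Matrix.mul_apply, Fin.sum_univ_two] at e00 e01 e10 e11
  have ht : x.1 0 0 + x.1 1 1 ≠ 0 := fun ht => h2 (by linear_combination (x.1 0 0) * ht - e00 - hd)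
  have hb : x.1 0 1 = 0 := (mul_eq_zero.1 (show (x.1 0 0 + x.1 1 1) * x.1 0 1 = 0 by linear_combination e01)).resolve_left ht
  have hc : x.1 1 0 = 0 := (mul_eq_zero.1 (show (x.1 0 0 + x.1 1 1) * x.1 1 0 = 0 by linear_combination e10)).resolve_left ht
  rw [hb, zero_mul, add_zero] at e00
  rw [hb, zero_mul, sub_zero] at hd
  rcases mul_self_eq_one_iff.1 e00 with h0 | h0 <;> rw [h0] at hd
  · left
    refine Subtype.ext (Matrix.ext fun i j => ?_)
    fin_cases i <;> fin_cases j <;> simp_all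
  · right
    refine Subtype.ext (Matrix.ext fun i j => ?_)
    fin_cases i <;> fin_cases j <;> simp_all [neg_eq_iff_eq_neg]

/-- `a * j * j = ...`: the inversion of `a` by `j`. -/
theorem conj_eq_inv {j a : SL} (hj : j * j = -1) (hja : j * a * (j * a) = -1) : j * a * j⁻¹ = a⁻¹ := by
  have h : j * (a * j * a) = j * j := by rw [hj, ← hja]; group
  have h2 := mul_left_cancel h
  calc j * a * j⁻¹ = a⁻¹ * (a * j * a) * j⁻¹ := by group
    _ = a⁻¹ := by rw [h2, mul_inv_cancel_right]

theorem inv_eq_neg {x : SL} (h : x * x = -1) : x⁻¹ = -x := by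
  refine inv_eq_of_mul_eq_one_right ?_
  rw [mul_neg, h, neg_neg]

/-- A matrix commuting with a trace zero element of square `-1` lies in its plane. -/
theorem exists_plane (h2 : (2 : F) ≠ 0) {a : SL} (ha : a * a = -1) {m : Matrix (Fin 2) (Fin 2) F}
    (hm : m * a.1 = a.1 * m) : ∃ s t : F, m = s • (1 : Matrix (Fin 2) (Fin 2) F) + t • a.1 := by
  have ht := trace_of_sq h2 ha
  set s := (m 0 0 + m 1 1) / 2
  set n := m - s • (1 : Matrix (Fin 2) (Fin 2) F)
  have hn : n 0 0 + n 1 1 = 0 := by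
    simp [n, s]
    field_simp
    ring
  have hna : n * a.1 = a.1 * n := by simp [n, sub_mul, mul_sub, hm]
  have hsum : n * a.1 + a.1 * n = (n 0 0 * a.1 0 0 + n 0 1 * a.1 1 0 + n 1 0 * a.1 0 1 + n 1 1 * a.1 1 1) •
      (1 : Matrix (Fin 2) (Fin 2) F) := by
    have hd : a.1 1 1 = -a.1 0 0 := by linear_combination ht
    have hd' : n 1 1 = -n 0 0 := by linear_combination hn
    ext i j
    fin_cases i <;> fin_cases j <;> simp [Matrix.mul_apply, Fin.sum_univ_two, hd, hd'] <;> ring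
  set c := n 0 0 * a.1 0 0 + n 0 1 * a.1 1 0 + n 1 0 * a.1 0 1 + n 1 1 * a.1 1 1
  have ha' : a.1 * a.1 = -1 := by
    have := congrArg Subtype.val ha
    simpa using this
  refine ⟨s, -(c / 2), ?_⟩
  have h1 : (2 : F) • n = (-c) • a.1 := by
    have h3 : ((2 : F) • (n * a.1)) * a.1 = (c • (1 : Matrix (Fin 2) (Fin 2) F)) * a.1 := by
      rw [← hsum, ← hna, two_smul]
    rw [Matrix.smul_mul, Matrix.mul_assoc, ha', Matrix.smul_mul, Matrix.one_mul] at h3
    rw [neg_smul, ← h3]
    simp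
  have h4 : n = (-(c / 2)) • a.1 := by
    rw [show n = (2 : F)⁻¹ • ((2 : F) • n) by rw [smul_smul, inv_mul_cancel₀ h2, one_smul], h1, smul_smul]
    congr 1
    field_simp
  rw [← h4]
  simp [n]

/-- An element commuting with two anticommuting elements of order 4 is central. -/
theorem eq_one_or_of_commute (h2 : (2 : F) ≠ 0) {x y m : SL} (hx : x * x = -1)
    (hxy : x * y = -(y * x)) (hmx : m * x = x * m) (hmy : m * y = y * m) : m = 1 ∨ m = -1 := by
  obtain ⟨s, t, hst⟩ := exists_plane h2 hx (congrArg Subtype.val hmx)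
  have hxy' : x.1 * y.1 = -(y.1 * x.1) := by
    have := congrArg Subtype.val hxy
    simpa using this
  have hmy' : m.1 * y.1 = y.1 * m.1 := congrArg Subtype.val hmy
  rw [hst, Matrix.add_mul, Matrix.mul_add, Matrix.smul_mul, Matrix.smul_mul, Matrix.mul_smul, Matrix.mul_smul,
    Matrix.one_mul, Matrix.mul_one, add_right_inj, hxy', smul_neg, neg_eq_iff_add_eq_zero, ← two_smul F, smul_smul] at hmy'
  have hne : y.1 * x.1 ≠ 0 := fun h => by
    have h1 := congrArg Matrix.det h
    simp [y.2, x.2] at h1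
  have ht0 : t = 0 := by
    rcases smul_eq_zero.1 hmy' with h | h
    · exact (mul_eq_zero.1 h).resolve_left h2
    · exact absurd h hne
  have hsq : s * s = 1 := by
    have h1 := m.2
    rw [hst, ht0, zero_smul, add_zero, Matrix.det_smul, Matrix.det_one, mul_one, Fintype.card_fin, pow_two] at h1
    exact h1
  rcases mul_self_eq_one_iff.1 hsq with h | h
  · left; refine Subtype.ext ?_; rw [hst, ht0, h]; simp
  · right; refine Subtype.ext ?_; rw [hst, ht0, h]; simp

theorem eq_one_or_of_unipotent (h2 : (2 : F) ≠ 0) {a : SL} {k : ℕ} (hk : a ^ 2 ^ k = 1) {e : F} (he : e * e = 1)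
    (ht : a.1 0 0 + a.1 1 1 = 2 * e) : a = 1 ∨ a = -1 := by
  set n := e • a.1 - 1 with hn
  have htn : n 0 0 + n 1 1 = 0 := by
    simp [hn]
    linear_combination e * ht + 2 * he
  have hnd : n.det = 0 := by
    have hd := det_eq a
    simp [hn, det_fin_two]
    linear_combination e * e * hd - e * ht - he
  have hnn : n * n = 0 := by rw [mul_self_coe_of_trace htn, hnd, neg_zero, zero_smul]
  have hpow : ∀ r : ℕ, (1 + n) ^ r = 1 + r • n := by
    intro r
    induction r with
    | zero => simp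
    | succ r ih =>
      rw [pow_succ, ih, mul_add, mul_one, add_mul, one_mul, smul_mul_assoc, hnn, smul_zero, add_zero, succ_nsmul]
      abel
  rcases Nat.eq_zero_or_pos k with rfl | hk0
  · left; simpa using hk
  have h1 : (1 + n) ^ 2 ^ k = 1 := by
    rw [hn, add_sub_cancel, smul_pow]
    have : a.1 ^ 2 ^ k = 1 := by
      have := congrArg Subtype.val hk
      simpa using this
    rw [this, show 2 ^ k = 2 * 2 ^ (k - 1) by rw [← pow_succ', Nat.sub_add_cancel hk0], pow_mul, pow_two, he, one_pow,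
      one_smul]
  rw [hpow, add_eq_left, ← Nat.cast_smul_eq_nsmul F, smul_eq_zero, Nat.cast_pow] at h1
  have hn0 : n = 0 := h1.resolve_left (pow_ne_zero _ (by exact_mod_cast h2))
  have ha : a.1 = e • (1 : Matrix (Fin 2) (Fin 2) F) := by
    rw [hn, sub_eq_zero] at hn0
    rw [← hn0, smul_smul, he, one_smul]
  rcases mul_self_eq_one_iff.1 he with h | h
  · left; refine Subtype.ext ?_; rw [ha, h]; simp
  · right; refine Subtype.ext ?_; rw [ha, h]; simp

variable [Fintype F]

/-- Every non-central 2-element is inverted by an element of order 4. -/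
theorem exists_inverter (h2 : (2 : F) ≠ 0) (hodd : Fintype.card F % 2 = 1) {a : SL} {k : ℕ} (hk : a ^ 2 ^ k = 1)
    (ha : a ≠ 1) (ha' : a ≠ -1) :
    ∃ j : SL, j * j = -1 ∧ j * a * (j * a) = -1 ∧ j * a * j⁻¹ = a⁻¹ := by
  suffices h : ∃ α β γ : F, -(α * α) - β * γ = 1 ∧
      α * (a.1 0 0 - a.1 1 1) + β * a.1 1 0 + γ * a.1 0 1 = 0 by
    obtain ⟨α, β, γ, hdet, htr⟩ := h
    let j : SL := ⟨!![α, β; γ, -α], by rw [det_fin_two]; simp; linear_combination hdet⟩
    have hj : j * j = -1 := sq_of_trace (by simp [j])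
    have hja : j * a * (j * a) = -1 := sq_of_trace (by
      show (j.1 * a.1) 0 0 + (j.1 * a.1) 1 1 = 0
      rw [Matrix.mul_apply, Matrix.mul_apply, Fin.sum_univ_two, Fin.sum_univ_two]
      simp [j]
      linear_combination htr)
    exact ⟨j, hj, hja, conj_eq_inv hj hja⟩
  have hd := det_eq a
  by_cases hr : a.1 1 0 = 0
  · have hps : a.1 0 0 - a.1 1 1 ≠ 0 := by
      intro h
      rw [hr, mul_zero, sub_zero, ← sub_eq_zero.1 h] at hd
      rcases eq_one_or_of_unipotent h2 hk hd (by linear_combination -h) with h' | h'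
      exacts [ha h', ha' h']
    refine ⟨-(a.1 0 1) / (a.1 0 0 - a.1 1 1), -(1 + (-(a.1 0 1) / (a.1 0 0 - a.1 1 1)) ^ 2), 1, by ring, ?_⟩
    rw [hr]
    field_simp
    ring
  set d := a.1 0 0 - a.1 1 1 with hdd
  have hD : d * d + 4 * a.1 0 1 * a.1 1 0 ≠ 0 := by
    intro h
    have h' : (a.1 0 0 + a.1 1 1) ^ 2 = 2 ^ 2 := by rw [hdd] at h; linear_combination h + 4 * hd
    rcases sq_eq_sq_iff_eq_or_eq_neg.1 h' with h'' | h''
    · rcases eq_one_or_of_unipotent h2 hk (mul_one 1) (by rw [h'', mul_one]) with h3 | h3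
      exacts [ha h3, ha' h3]
    · rcases eq_one_or_of_unipotent h2 hk (e := -1) (by ring) (by rw [h'']; ring) with h3 | h3
      exacts [ha h3, ha' h3]
  set D := (d * d + 4 * a.1 0 1 * a.1 1 0) / (4 * a.1 1 0 * a.1 1 0) with hDdef
  have h4 : (4 : F) ≠ 0 := by
    rw [show (4 : F) = 2 * 2 by norm_num]; exact mul_ne_zero h2 h2
  have hD0 : D ≠ 0 := div_ne_zero hD (mul_ne_zero (mul_ne_zero h4 hr) hr)
  obtain ⟨δ, γ, hδγ⟩ := FiniteField.exists_root_sum_quadratic (f := -(Polynomial.X ^ 2) - 1)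
    (g := Polynomial.C D * Polynomial.X ^ 2) (by
      rw [show (-(Polynomial.X ^ 2) - 1 : Polynomial F) = -(Polynomial.X ^ 2 + Polynomial.C 1) by rw [map_one]; ring,
        Polynomial.degree_neg, Polynomial.degree_X_pow_add_C (by norm_num)]
      rfl)
    (by rw [Polynomial.degree_C_mul_X_pow _ hD0]; rfl) hodd
  simp only [Polynomial.eval_sub, Polynomial.eval_neg, Polynomial.eval_pow, Polynomial.eval_X, Polynomial.eval_one,
    Polynomial.eval_mul, Polynomial.eval_C, hDdef] at hδγ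
  set α := δ + γ * d / (2 * a.1 1 0)
  refine ⟨α, -(α * d + γ * a.1 0 1) / a.1 1 0, γ, ?_, ?_⟩
  · simp only [α]
    field_simp at hδγ ⊢
    linear_combination hδγ
  · field_simp
    ring

/-- The subgroup generated by `a` and an inverter is a 2-group. -/
theorem exists_conj_inverter {a j : SL} {k : ℕ} (hk : a ^ 2 ^ k = 1) (hj : j * j = -1)
    (hja : j * a * j⁻¹ = a⁻¹) (Q : Sylow 2 SL) : ∃ h : SL, h * a * h⁻¹ ∈ Q ∧ h * j * h⁻¹ ∈ Q := by
  haveI : Fact (Nat.Prime 2) := ⟨Nat.prime_two⟩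
  have hp : ∀ {x : SL} {l : ℕ}, x ^ 2 ^ l = 1 → IsPGroup 2 (Subgroup.zpowers x) := fun {x l} hx => by
    obtain ⟨i, -, hi⟩ := (Nat.dvd_prime_pow Nat.prime_two).1 (orderOf_dvd_of_pow_eq_one hx)
    exact IsPGroup.of_card (n := i) (by rw [Nat.card_zpowers, hi])
  have hn : Subgroup.zpowers j ≤ Subgroup.normalizer (Subgroup.zpowers a : Set SL) := by
    rw [Subgroup.zpowers_le]
    refine CfsgLib.AltSylowTwo.mem_normalizer_of_forall ?_
    rintro _ ⟨i, rfl⟩
    refine ⟨-i, ?_⟩
    show a ^ (-i) = j * a ^ i * j⁻¹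
    rw [← MulAut.conj_apply, map_zpow, MulAut.conj_apply, hja, _root_.inv_zpow, _root_.zpow_neg]
  have hW : IsPGroup 2 (Subgroup.zpowers j ⊔ Subgroup.zpowers a : Subgroup SL) :=
    IsPGroup.to_sup_of_normal_right' (hp (l := 2) (by
      rw [pow_two, pow_mul, pow_two j, hj, pow_two, neg_mul_neg, one_mul])) (hp hk) hn
  obtain ⟨Q', hQ'⟩ := hW.exists_le_sylow
  obtain ⟨h, hh⟩ := MulAction.exists_smul_eq SL Q' Q
  have hmem : ∀ x ∈ (Q' : Subgroup SL), h * x * h⁻¹ ∈ Q := fun x hx => by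
    rw [← hh]
    exact ⟨x, hx, rfl⟩
  exact ⟨h, hmem _ (hQ' (Subgroup.mem_sup_right (Subgroup.mem_zpowers a))),
    hmem _ (hQ' (Subgroup.mem_sup_left (Subgroup.mem_zpowers j)))⟩

theorem exists_pow_two {Q : Sylow 2 SL} {x : SL} (hx : x ∈ Q) : ∃ k : ℕ, x ^ 2 ^ k = 1 := by
  obtain ⟨k, hk⟩ := Q.isPGroup' ⟨x, hx⟩
  exact ⟨k, congrArg Subtype.val hk⟩

/-- Two anticommuting elements of order 4 in a Sylow 2-subgroup. -/
theorem exists_pair (h2 : (2 : F) ≠ 0) (hodd : Fintype.card F % 2 = 1) (Q : Sylow 2 SL) :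
    ∃ x ∈ Q, ∃ y ∈ Q, x * x = -1 ∧ y * y = -1 ∧ x * y = -(y * x) := by
  let a : SL := ⟨!![0, 1; -1, 0], by simp [det_fin_two]⟩
  have ha : a * a = -1 := sq_of_trace (by simp [a])
  have hk : a ^ 2 ^ 2 = 1 := by rw [pow_two, pow_mul, pow_two a, ha, pow_two, neg_mul_neg, one_mul]
  obtain ⟨j, hj, hja, hjc⟩ := exists_inverter h2 hodd hk (fun h => neg_one_ne_one h2 (by rw [← ha, h, one_mul]))
    (fun h => neg_one_ne_one h2 (by rw [← ha, h, neg_mul_neg, one_mul]))
  obtain ⟨h, ha', hj'⟩ := exists_conj_inverter hk hj hjc Q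
  have hz : ∀ z : SL, z * z = -1 → h * z * h⁻¹ * (h * z * h⁻¹) = -1 := fun z hz => by
    rw [show h * z * h⁻¹ * (h * z * h⁻¹) = h * (z * z) * h⁻¹ by group, hz]; simp
  refine ⟨_, hj', _, ha', hz j hj, hz a ha, ?_⟩
  have h1 : j * a = -(a * j) := by
    have := mul_inv_eq_iff_eq_mul.1 hjc
    rw [this, inv_eq_neg ha, neg_mul]
  rw [show h * j * h⁻¹ * (h * a * h⁻¹) = h * (j * a) * h⁻¹ by group, h1,
    show h * a * h⁻¹ * (h * j * h⁻¹) = h * (a * j) * h⁻¹ by group, mul_neg, neg_mul]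

theorem neg_one_mem (h2 : (2 : F) ≠ 0) (hodd : Fintype.card F % 2 = 1) (Q : Sylow 2 SL) : (-1 : SL) ∈ Q := by
  obtain ⟨x, hx, -, -, hxx, -, -⟩ := exists_pair h2 hodd Q
  exact hxx ▸ mul_mem hx hx

theorem neg_mem (h2 : (2 : F) ≠ 0) (hodd : Fintype.card F % 2 = 1) {Q : Sylow 2 SL} {u : SL} (hu : u ∈ Q) :
    -u ∈ Q := by
  have := mul_mem (neg_one_mem h2 hodd Q) hu
  rwa [neg_one_mul] at this

theorem mem_of_normalizer {Q : Sylow 2 SL} {b : SL} (hn : b ∈ Subgroup.normalizer ((Q : Subgroup SL) : Set SL))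
    {l : ℕ} (hb : b * b ∈ Q) (hl : (b * b) ^ 2 ^ l = 1) : b ∈ Q := by
  haveI : Fact (Nat.Prime 2) := ⟨Nat.prime_two⟩
  obtain ⟨i, -, hi⟩ := (Nat.dvd_prime_pow Nat.prime_two).1 (orderOf_dvd_of_pow_eq_one
    (show b ^ 2 ^ (l + 1) = 1 by rw [pow_succ', pow_mul, pow_two b, hl]))
  have hp : IsPGroup 2 (Subgroup.zpowers b) := IsPGroup.of_card (n := i) (by rw [Nat.card_zpowers, hi])
  exact ((hp.inf_normalizer_sylow Q).le ⟨Subgroup.mem_zpowers b, hn⟩).2

/-- If the Sylow 2-subgroup has an element of order at least 8, it is self-normalising. -/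
theorem normalizer_eq_of_large (h2 : (2 : F) ≠ 0) (hodd : Fintype.card F % 2 = 1) {Q : Sylow 2 SL}
    (hbig : ∃ u ∈ Q, u ≠ 1 ∧ u ≠ -1 ∧ u * u ≠ -1) {b : SL}
    (hb : b ∈ Subgroup.normalizer ((Q : Subgroup SL) : Set SL)) : b ∈ Q := by
  haveI : Fact (Nat.Prime 2) := ⟨Nat.prime_two⟩
  obtain ⟨x, hx, y, hy, hxx, hyy, hxy⟩ := exists_pair h2 hodd Q
  have hcen : ∀ m : SL, (∀ q ∈ Q, m * q = q * m) → m = 1 ∨ m = -1 := fun m hm =>
    eq_one_or_of_commute h2 hxx hxy (hm x hx) (hm y hy)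
  set Qs := (Q : Subgroup SL)
  have hQp : IsPGroup 2 Qs := Q.isPGroup'
  haveI : Nontrivial (Qs ⧸ Subgroup.center Qs) := by
    refine ⟨⟨(⟨x, hx⟩ : Qs), 1, fun h => ?_⟩⟩
    rw [QuotientGroup.eq_one_iff, Subgroup.mem_center_iff] at h
    have := congrArg Subtype.val (h ⟨y, hy⟩)
    have h1 : y * x = x * y := this
    have hm : (-1 : SL) * (y * x) = y * x := by rw [neg_one_mul, ← hxy, ← h1]
    exact neg_one_ne_one h2 (mul_eq_right.1 hm)
  obtain ⟨z, hz, hz1⟩ : ∃ z : Qs ⧸ Subgroup.center Qs, z ∈ Subgroup.center _ ∧ z ≠ 1 := by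
    haveI := (hQp.to_quotient (Subgroup.center Qs)).center_nontrivial
    obtain ⟨⟨z, hz⟩, hne⟩ := exists_ne (1 : Subgroup.center (Qs ⧸ Subgroup.center Qs))
    exact ⟨z, hz, fun h => hne (Subtype.ext h)⟩
  obtain ⟨a, rfl⟩ := QuotientGroup.mk_surjective z
  have hacomm : ∀ q ∈ Q, q * (a : SL) = a * q ∨ q * (a : SL) = -((a : SL) * q) := by
    intro q hq
    have h := Subgroup.mem_center_iff.1 hz ((⟨q, hq⟩ : Qs) : Qs ⧸ Subgroup.center Qs)
    rw [← QuotientGroup.mk_mul, ← QuotientGroup.mk_mul, QuotientGroup.eq, Subgroup.mem_center_iff] at h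
    let q' : Qs := ⟨q, hq⟩
    let e : Qs := (q' * a)⁻¹ * (a * q')
    have he : ∀ r ∈ Q, (e : SL) * r = r * (e : SL) := fun r hr =>
      (congrArg Subtype.val (h (⟨r, hr⟩ : Qs))).symm
    have hev : (e : SL) = (q * (a : SL))⁻¹ * ((a : SL) * q) := rfl
    rcases hcen (e : SL) he with h1 | h1 <;> rw [hev] at h1
    · left
      exact inv_mul_eq_one.1 h1
    · right
      rw [inv_mul_eq_iff_eq_mul, mul_neg_one] at h1
      rw [h1, neg_neg]
  have haQ : (a : SL) ∈ Q := a.2
  have ha1 : (a : SL) ≠ 1 ∧ (a : SL) ≠ -1 := by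
    constructor <;>
    · intro h
      refine hz1 ((QuotientGroup.eq_one_iff _).2 (Subgroup.mem_center_iff.2 fun q => Subtype.ext ?_))
      show (q : SL) * a = a * q
      simp [h]
  obtain ⟨w, hw, hwa⟩ : ∃ w ∈ Q, w * (a : SL) = -((a : SL) * w) := by
    by_contra hcon
    push Not at hcon
    rcases hcen a fun q hq => ((hacomm q hq).resolve_right (hcon q hq)).symm with h | h
    exacts [ha1.1 h, ha1.2 h]
  have haa : (a : SL) * a = -1 := by
    refine sq_of_trace ?_
    have h1 : (w : SL).1 * (a : SL).1 = -((a : SL).1 * w.1) := by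
      have := congrArg Subtype.val hwa
      simpa using this
    have h3 : (a : SL).1 = -((w⁻¹ : SL).1 * (a : SL).1 * w.1) := by
      have e : (w⁻¹ : SL).1 * (w : SL).1 = 1 := congrArg Subtype.val (inv_mul_cancel w)
      calc (a : SL).1 = (w⁻¹ : SL).1 * ((w : SL).1 * (a : SL).1) := by rw [← Matrix.mul_assoc, e, Matrix.one_mul]
        _ = _ := by rw [h1, Matrix.mul_neg, Matrix.mul_assoc]
    have h4 := congrArg Matrix.trace h3
    rw [Matrix.trace_neg, Matrix.trace_mul_cycle, show (w : SL).1 * (w⁻¹ : SL).1 = 1 from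
      congrArg Subtype.val (mul_inv_cancel w), Matrix.one_mul, Matrix.trace_fin_two] at h4
    refine (mul_eq_zero.1 (show (2 : F) * ((a : SL).1 0 0 + (a : SL).1 1 1) = 0 by linear_combination h4)).resolve_left h2
  -- elements of order at least 8 commute with `a`
  have hplane : ∀ v ∈ Q, v ≠ 1 → v ≠ -1 → v * v ≠ -1 → v * (a : SL) = a * v := by
    intro v hv h1 h1' hvv
    rcases hacomm v hv with h | h
    · exact h
    exfalso
    refine hvv (sq_of_trace ?_)
    have e1 : v.1 * (a : SL).1 = -((a : SL).1 * v.1) := by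
      have := congrArg Subtype.val h
      simpa using this
    have h3 : v.1 = -((a : SL).1 * v.1 * ((a : SL)⁻¹).1) := by
      have e : (a : SL).1 * ((a : SL)⁻¹).1 = 1 := congrArg Subtype.val (mul_inv_cancel (a : SL))
      calc v.1 = v.1 * ((a : SL).1 * ((a : SL)⁻¹).1) := by rw [e, Matrix.mul_one]
        _ = _ := by rw [← Matrix.mul_assoc, e1, Matrix.neg_mul]
    have h4 := congrArg Matrix.trace h3
    rw [Matrix.trace_neg, Matrix.trace_mul_cycle, show ((a : SL)⁻¹).1 * (a : SL).1 = 1 from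
      congrArg Subtype.val (inv_mul_cancel (a : SL)), Matrix.one_mul, Matrix.trace_fin_two] at h4
    exact (mul_eq_zero.1 (show (2 : F) * (v.1 0 0 + v.1 1 1) = 0 by linear_combination h4)).resolve_left h2
  obtain ⟨u, hu, hu1, hu1', huu⟩ := hbig
  obtain ⟨s, t, hst⟩ := exists_plane h2 haa (congrArg Subtype.val (hplane u hu hu1 hu1' huu))
  have ht0 : t ≠ 0 := by
    intro h
    rw [h, zero_smul, add_zero] at hst
    have h1 := u.2
    rw [hst, Matrix.det_smul, Matrix.det_one, mul_one, Fintype.card_fin, pow_two] at h1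
    rcases mul_self_eq_one_iff.1 h1 with h' | h' <;> rw [h'] at hst
    · exact hu1 (Subtype.ext (by simpa using hst))
    · exact hu1' (Subtype.ext (by simpa using hst))
  -- an element of the normaliser fixes the line of `a`
  have hline : ∀ c : SL, c ∈ Subgroup.normalizer (Qs : Set SL) → c * a = a * c ∨ c * a = -((a : SL) * c) := by
    intro c hc
    have hv : c * u * c⁻¹ ∈ Q := (Subgroup.mem_normalizer_iff.1 hc u).1 hu
    have hne : ∀ z : SL, c * u * c⁻¹ = z → (∀ g, g * z = z * g) → u = z := fun z h hz => by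
      rw [mul_inv_eq_iff_eq_mul, ← hz c] at h
      exact mul_left_cancel h
    have h := hplane _ hv (fun h => hu1 (hne 1 h (fun g => by simp))) (fun h => hu1' (hne (-1) h (fun g => by simp)))
      (fun h => huu (by
        rw [show c * u * c⁻¹ * (c * u * c⁻¹) = c * (u * u) * c⁻¹ by group, mul_inv_eq_iff_eq_mul, neg_one_mul,
          ← mul_neg_one] at h
        exact mul_left_cancel h))
    obtain ⟨s', t', hst'⟩ := exists_plane h2 haa (congrArg Subtype.val h)
    have ecc : c.1 * (c⁻¹ : SL).1 = 1 := congrArg Subtype.val (mul_inv_cancel c)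
    have e1 : s' • (1 : Matrix (Fin 2) (Fin 2) F) + t' • (a : SL).1 =
        s • (1 : Matrix (Fin 2) (Fin 2) F) + t • (c.1 * (a : SL).1 * (c⁻¹ : SL).1) := by
      rw [← hst']
      show c.1 * u.1 * (c⁻¹ : SL).1 = _
      rw [hst, Matrix.mul_add, Matrix.add_mul,
        Matrix.mul_smul, Matrix.smul_mul, Matrix.mul_smul, Matrix.smul_mul, Matrix.mul_one, ecc]
    have htr : (c.1 * (a : SL).1 * (c⁻¹ : SL).1).trace = 0 := by
      rw [Matrix.trace_mul_cycle, show (c⁻¹ : SL).1 * c.1 = 1 from congrArg Subtype.val (inv_mul_cancel c),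
        Matrix.one_mul, Matrix.trace_fin_two, trace_of_sq h2 haa]
    have hss : s' = s := by
      have h5 := congrArg Matrix.trace e1
      rw [Matrix.trace_add, Matrix.trace_add, Matrix.trace_smul, Matrix.trace_smul, Matrix.trace_smul,
        Matrix.trace_smul, htr, Matrix.trace_fin_two (a : SL).1, trace_of_sq h2 haa, Matrix.trace_one] at h5
      simpa [h2] using h5
    rw [hss, add_right_inj] at e1
    have hm : c.1 * (a : SL).1 * (c⁻¹ : SL).1 = (t' / t) • (a : SL).1 := by
      rw [div_eq_inv_mul, mul_smul, e1, smul_smul, inv_mul_cancel₀ ht0, one_smul]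
    have hd := congrArg Matrix.det hm
    rw [Matrix.det_mul, Matrix.det_mul, c.2, (a : SL).2, (c⁻¹ : SL).2, Matrix.det_smul, (a : SL).2, Fintype.card_fin,
      pow_two] at hd
    simp only [mul_one] at hd
    rcases mul_self_eq_one_iff.1 hd.symm with h6 | h6 <;> rw [h6] at hm
    · left
      have : c * a * c⁻¹ = (a : SL) := Subtype.ext (by simpa using hm)
      exact mul_inv_eq_iff_eq_mul.1 this
    · right
      have : c * a * c⁻¹ = -(a : SL) := Subtype.ext (by simpa using hm)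
      rw [mul_inv_eq_iff_eq_mul.1 this, neg_mul]
  have hcomm : ∀ c : SL, c ∈ Subgroup.normalizer (Qs : Set SL) → c * a = a * c → c ∈ Q := by
    intro c hc hca
    obtain ⟨s', t', hc'⟩ := exists_plane h2 haa (congrArg Subtype.val hca)
    have hwc : w * c⁻¹ * w⁻¹ = c := by
      rw [mul_inv_eq_iff_eq_mul, mul_inv_eq_iff_eq_mul]
      have hw' : (w : SL).1 * (a : SL).1 = -((a : SL).1 * w.1) := by
        have := congrArg Subtype.val hwa
        simpa using this
      have haa' : (a : SL).1 * (a : SL).1 = -1 := by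
        have := congrArg Subtype.val haa
        simpa using this
      have hdet : s' * s' + t' * t' = 1 := by
        have h1 := c.2
        have ht := trace_of_sq h2 haa
        have hda := det_eq (a : SL)
        rw [hc', det_fin_two] at h1
        simp at h1
        linear_combination h1 - t' * t' * hda - s' * t' * ht
      refine Subtype.ext ?_
      show w.1 = c.1 * w.1 * c.1
      rw [hc', Matrix.mul_assoc, Matrix.mul_add w.1, Matrix.mul_smul w.1, Matrix.mul_smul w.1, hw', Matrix.mul_one,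
        Matrix.add_mul, Matrix.smul_mul, Matrix.smul_mul, Matrix.one_mul, Matrix.mul_add, Matrix.mul_smul,
        Matrix.mul_smul, Matrix.mul_neg, ← Matrix.mul_assoc, haa', Matrix.neg_mul, Matrix.one_mul]
      simp only [smul_add, smul_neg, smul_smul, neg_neg]
      rw [mul_comm t' s']
      calc w.1 = (s' * s' + t' * t') • w.1 := by rw [hdet, one_smul]
        _ = _ := by rw [add_smul]; abel
    have hcc : c * c = c * w * c⁻¹ * w⁻¹ := by
      calc c * c = c * (w * c⁻¹ * w⁻¹) := by rw [hwc]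
        _ = _ := by group
    have hmem : c * c ∈ Q := hcc ▸ mul_mem ((Subgroup.mem_normalizer_iff.1 hc w).1 hw) (inv_mem hw)
    obtain ⟨l, hl⟩ := exists_pow_two hmem
    exact mem_of_normalizer hc hmem hl
  rcases hline b hb with h | h
  · exact hcomm b hb h
  · have hwb : w * b ∈ Q := hcomm _ (mul_mem (Subgroup.le_normalizer hw) hb) (by
      rw [mul_assoc w b, h, mul_neg, ← mul_assoc, hwa, neg_mul, neg_neg, mul_assoc])
    have := mul_mem (inv_mem hw) hwb
    rwa [inv_mul_cancel_left] at this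

/-- If all non-central elements of the Sylow 2-subgroup have order 4, it is a quaternion group of order 8. -/
theorem mem_quaternion (h2 : (2 : F) ≠ 0) {Q : Sylow 2 SL} (hA : ∀ u ∈ Q, u ≠ 1 → u ≠ -1 → u * u = -1)
    {x y : SL} (hx : x ∈ Q) (hy : y ∈ Q) (hxx : x * x = -1) (hyy : y * y = -1) (hxy : x * y = -(y * x))
    {u : SL} (hu : u ∈ Q) :
    (u = 1 ∨ u = -1) ∨ (u = x ∨ u = -x) ∨ (u = y ∨ u = -y) ∨ (u = x * y ∨ u = -(x * y)) := by
  by_cases hpm : u = 1 ∨ u = -1
  · exact Or.inl hpm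
  push Not at hpm
  have huu := hA u hu hpm.1 hpm.2
  have hanti : ∀ v, v ∈ Q → v * v = -1 → u = v ∨ u = -v ∨ u * v = -(v * u) := by
    intro v hv hvv
    by_cases h1 : u * v = 1
    · refine Or.inr (Or.inl ?_)
      rw [eq_inv_of_mul_eq_one_left h1, inv_eq_neg hvv]
    by_cases h2' : u * v = -1
    · left
      have h3 : u * v * v = -v := by rw [h2', neg_one_mul]
      rw [mul_assoc, hvv, mul_neg_one, neg_inj] at h3
      exact h3
    refine Or.inr (Or.inr ?_)
    have h3 : (u * v)⁻¹ = -(u * v) := inv_eq_neg (hA _ (mul_mem hu hv) h1 h2')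
    rw [_root_.mul_inv_rev, inv_eq_neg hvv, inv_eq_neg huu, neg_mul_neg] at h3
    rw [h3, neg_neg]
  rcases hanti x hx hxx with h | h | hux
  · exact Or.inr (Or.inl (Or.inl h))
  · exact Or.inr (Or.inl (Or.inr h))
  rcases hanti y hy hyy with h | h | huy
  · exact Or.inr (Or.inr (Or.inl (Or.inl h)))
  · exact Or.inr (Or.inr (Or.inl (Or.inr h)))
  refine Or.inr (Or.inr (Or.inr ?_))
  have hm : u * (x * y)⁻¹ = 1 ∨ u * (x * y)⁻¹ = -1 := by
    have hcx : u * (x * y) * x = x * (u * (x * y)) := by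
      calc u * (x * y) * x = u * x * (y * x) := by group
        _ = -(x * u) * (-(x * y)) := by rw [hux, show y * x = -(x * y) by rw [hxy, neg_neg]]
        _ = x * (u * (x * y)) := by rw [neg_mul_neg, mul_assoc]
    have hcy : u * (x * y) * y = y * (u * (x * y)) := by
      calc u * (x * y) * y = u * x * (y * y) := by group
        _ = -(u * x) := by rw [hyy, mul_neg_one]
        _ = y * (u * (x * y)) := by
          rw [hxy, mul_neg, mul_neg, ← mul_assoc y u, show y * u = -(u * y) by rw [huy, neg_neg], neg_mul, neg_neg,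
            mul_assoc u y, ← mul_assoc y y, hyy, neg_one_mul, mul_neg]
    have hc := eq_one_or_of_commute h2 hxx hxy hcx hcy
    have hz : (x * y) * (x * y) = -1 := by
      calc x * y * (x * y) = x * y * (-(y * x)) := by rw [hxy]
        _ = -(x * (y * y) * x) := by rw [mul_neg]; group
        _ = x * x := by rw [hyy, mul_neg_one, neg_mul, neg_neg]
        _ = -1 := hxx
    rw [inv_eq_neg hz, mul_neg]
    rcases hc with h | h <;> rw [h] <;> simp
  rcases hm with h | h
  · exact Or.inl (mul_inv_eq_one.1 h)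
  · right
    rw [mul_inv_eq_iff_eq_mul, neg_one_mul] at h
    exact h

/-- In the quaternion case an element fixing the lines of `x` and `y` lies in `Q`. -/
theorem mem_of_fix_lines (h2 : (2 : F) ≠ 0) (hodd : Fintype.card F % 2 = 1) {Q : Sylow 2 SL} {x y b : SL}
    (hx : x ∈ Q) (hy : y ∈ Q) (hxx : x * x = -1) (hyy : y * y = -1) (hxy : x * y = -(y * x))
    (hbx : b * x = x * b ∨ b * x = -(x * b)) (hby : b * y = y * b ∨ b * y = -(y * b)) : b ∈ Q := by
  have hyx : y * x = -(x * y) := by rw [hxy, neg_neg]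
  have hfin : ∀ q ∈ Q, q * b * x = x * (q * b) → q * b * y = y * (q * b) → b ∈ Q := by
    intro q hq h1 h1'
    have hqb : q * b ∈ Q := by
      rcases eq_one_or_of_commute h2 hxx hxy h1 h1' with h | h <;> rw [h]
      exacts [one_mem _, neg_one_mem h2 hodd Q]
    have := mul_mem (inv_mem hq) hqb
    rwa [inv_mul_cancel_left] at this
  rcases hbx with h1 | h1 <;> rcases hby with h1' | h1'
  · exact hfin 1 (one_mem _) (by simpa using h1) (by simpa using h1')
  · exact hfin x hx (by rw [mul_assoc x b, h1]) (by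
      rw [mul_assoc x b, h1', mul_neg, ← mul_assoc, hxy, neg_mul, neg_neg, mul_assoc])
  · exact hfin y hy (by rw [mul_assoc y b, h1, mul_neg, ← mul_assoc, hyx, neg_mul, neg_neg, mul_assoc])
      (by rw [mul_assoc y b, h1'])
  · exact hfin (x * y) (mul_mem hx hy) (by
      rw [mul_assoc (x * y) b, h1, mul_neg, ← mul_assoc, mul_assoc x y x, hyx, mul_neg, neg_mul, neg_neg, mul_assoc,
        mul_assoc]) (by
      rw [mul_assoc (x * y) b, h1', mul_neg, ← mul_assoc, mul_assoc x y y, hyy, mul_neg_one, neg_mul, neg_neg,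
        ← mul_assoc y (x * y), ← mul_assoc y x y, hyx, neg_mul, mul_assoc x y y, hyy, mul_neg_one, neg_neg])

end CfsgLib.PSpFour
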